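import Mathlib

set_option autoImplicit false

/-! Groups in which a point stabiliser has a normal subgroup of prime order `p` that is regular on
the remaining points. -/

namespace Cfsg.Agent.Lib.Helper12.DegP1

open MulAction

variable {G X : Type*} [Group G] [MulAction G X]

/-- `T` is a subgroup of prime order `p`, fixing `oI`, normalised by the stabiliser of `oI` and
regular on the other points. -/
structure PT (T : Subgroup G) (oI : X) (p : ℕ) : Prop where
  prime : p.Prime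
  card : Nat.card T = p
  fix : ∀ t ∈ T, t • oI = oI
  norm : ∀ g : G, g • oI = oI → ∀ t ∈ T, g * t * g⁻¹ ∈ T
  trans : ∀ x y : X, x ≠ oI → y ≠ oI → ∃ t ∈ T, t • x = y
  free : ∀ t ∈ T, ∀ x : X, x ≠ oI → t • x = x → t = 1

namespace PT

variable {T : Subgroup G} {oI : X} {p : ℕ}

theorem exists_pow (h : PT T oI p) {t : G} (ht : t ∈ T) (ht1 : t ≠ 1) {s : G} (hs : s ∈ T) :
    ∃ k : ℤ, s = t ^ k := by
  have : Fact p.Prime := ⟨h.prime⟩
  have h1 : (⟨t, ht⟩ : T) ≠ 1 := fun hh => ht1 (congrArg Subtype.val hh)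
  have h2 := mem_zpowers_of_prime_card (G := T) h.card h1 (g' := ⟨s, hs⟩)
  obtain ⟨k, hk⟩ := Subgroup.mem_zpowers_iff.mp h2
  exact ⟨k, by simpa using (congrArg Subtype.val hk).symm⟩

theorem comm (h : PT T oI p) : ∀ s ∈ T, ∀ t ∈ T, s * t = t * s := by
  intro s hs t ht
  by_cases ht1 : t = 1
  · rw [ht1, one_mul, mul_one]
  obtain ⟨k, rfl⟩ := h.exists_pow ht ht1 hs
  exact ((Commute.refl t).zpow_left k).eq

theorem smul_ne (h : PT T oI p) {t : G} (ht : t ∈ T) {x : X} (hx : x ≠ oI) : t • x ≠ oI := by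
  intro hh
  apply hx
  rw [← h.fix t ht] at hh
  exact smul_left_cancel t hh

theorem eq_of_smul_eq (h : PT T oI p) {s t : G} (hs : s ∈ T) (ht : t ∈ T) {x : X} (hx : x ≠ oI)
    (hst : s • x = t • x) : s = t := by
  have := h.free (t⁻¹ * s) (T.mul_mem (T.inv_mem ht) hs) x hx (by rw [mul_smul, hst, inv_smul_smul])
  exact (inv_mul_eq_one.mp this).symm

/-- An element fixing `oI` and another point and commuting with a non-trivial element of `T` is
trivial. -/
theorem eq_one_of_commute [FaithfulSMul G X] (h : PT T oI p) {g t : G} {o0 : X} (h0 : o0 ≠ oI)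
    (hgI : g • oI = oI) (hg0 : g • o0 = o0) (ht : t ∈ T) (ht1 : t ≠ 1) (hc : g * t * g⁻¹ = t) :
    g = 1 := by
  have hc' : Commute g t := by
    rw [mul_inv_eq_iff_eq_mul] at hc
    exact hc
  apply FaithfulSMul.eq_of_smul_eq_smul (α := X)
  intro x
  rw [one_smul]
  by_cases hx : x = oI
  · rw [hx, hgI]
  obtain ⟨s, hs, rfl⟩ := h.trans o0 x h0 hx
  obtain ⟨k, rfl⟩ := h.exists_pow ht ht1 hs
  rw [← mul_smul, (hc'.zpow_right k).eq, mul_smul, hg0]

/-- Only the identity fixes `oI` and two more points. -/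
theorem eq_one_of_fix [FaithfulSMul G X] (h : PT T oI p) {g : G} {o0 y : X} (h0 : o0 ≠ oI)
    (hy : y ≠ oI) (hy0 : y ≠ o0) (hgI : g • oI = oI) (hg0 : g • o0 = o0) (hgy : g • y = y) :
    g = 1 := by
  obtain ⟨t, ht, rfl⟩ := h.trans o0 y h0 hy
  have ht1 : t ≠ 1 := by
    rintro rfl
    exact hy0 (one_smul _ _)
  refine h.eq_one_of_commute h0 hgI hg0 ht ht1 ?_
  apply h.eq_of_smul_eq (h.norm g hgI t ht) ht h0
  have : g⁻¹ • o0 = o0 := by rw [inv_smul_eq_iff, hg0]
  rw [mul_smul, mul_smul, this, hgy]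

/-- The stabiliser of two points is abelian. -/
theorem stab_comm [FaithfulSMul G X] (h : PT T oI p) {c d : G} {o0 : X} (h0 : o0 ≠ oI)
    (hcI : c • oI = oI) (hc0 : c • o0 = o0) (hdI : d • oI = oI) (hd0 : d • o0 = o0) :
    c * d = d * c := by
  have hT : ∃ t ∈ T, t ≠ 1 := by
    by_contra hcon
    push Not at hcon
    have : T = ⊥ := (Subgroup.eq_bot_iff_forall T).2 hcon
    have h1 := h.card
    rw [this, Subgroup.card_bot] at h1
    exact h.prime.one_lt.ne h1
  obtain ⟨t, ht, ht1⟩ := hT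
  obtain ⟨a, ha⟩ := h.exists_pow ht ht1 (h.norm c hcI t ht)
  obtain ⟨b, hb⟩ := h.exists_pow ht ht1 (h.norm d hdI t ht)
  have hca : ∀ k : ℤ, c * t ^ k * c⁻¹ = (t ^ a) ^ k := by
    intro k
    rw [← ha, conj_zpow]
  have hdb : ∀ k : ℤ, d * t ^ k * d⁻¹ = (t ^ b) ^ k := by
    intro k
    rw [← hb, conj_zpow]
  have key : ((d * c)⁻¹ * (c * d)) * t * ((d * c)⁻¹ * (c * d))⁻¹ = t := by
    have e1 : (c * d) * t * (c * d)⁻¹ = t ^ (a * b) := by
      calc (c * d) * t * (c * d)⁻¹ = c * (d * t * d⁻¹) * c⁻¹ := by group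
        _ = t ^ (a * b) := by rw [hb, hca, zpow_mul]
    have e2 : (d * c) * t * (d * c)⁻¹ = t ^ (a * b) := by
      calc (d * c) * t * (d * c)⁻¹ = d * (c * t * c⁻¹) * d⁻¹ := by group
        _ = t ^ (a * b) := by rw [ha, hdb, ← zpow_mul, mul_comm]
    calc ((d * c)⁻¹ * (c * d)) * t * ((d * c)⁻¹ * (c * d))⁻¹
        = (d * c)⁻¹ * ((c * d) * t * (c * d)⁻¹) * (d * c) := by group
      _ = (d * c)⁻¹ * ((d * c) * t * (d * c)⁻¹) * (d * c) := by rw [e1, e2]
      _ = t := by group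
  have hI : ((d * c)⁻¹ * (c * d)) • oI = oI := by
    rw [mul_smul, mul_smul, hdI, hcI, inv_smul_eq_iff, mul_smul, hcI, hdI]
  have h00 : ((d * c)⁻¹ * (c * d)) • o0 = o0 := by
    rw [mul_smul, mul_smul, hd0, hc0, inv_smul_eq_iff, mul_smul, hc0, hd0]
  have := h.eq_one_of_commute h0 hI h00 ht ht1 key
  exact (inv_mul_eq_one.mp this).symm

theorem stab_decomp (h : PT T oI p) {g : G} {o0 : X} (h0 : o0 ≠ oI) (hgI : g • oI = oI) :
    ∃ t ∈ T, ∃ d : G, d • oI = oI ∧ d • o0 = o0 ∧ g = t * d := by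
  have hg0 : g • o0 ≠ oI := by
    intro hh
    rw [← hgI] at hh
    exact h0 (smul_left_cancel g hh)
  obtain ⟨t, ht, htg⟩ := h.trans o0 (g • o0) h0 hg0
  refine ⟨t, ht, t⁻¹ * g, ?_, ?_, by group⟩
  · rw [mul_smul, hgI, inv_smul_eq_iff, h.fix t ht]
  · rw [mul_smul, inv_smul_eq_iff, htg]

/-- `G` is 2-transitive (elementwise form) if it is transitive. -/
theorem two_trans [IsPretransitive G X] (h : PT T oI p) {a b c d : X} (hab : a ≠ b) (hcd : c ≠ d) :
    ∃ g : G, g • a = c ∧ g • b = d := by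
  obtain ⟨g₁, hg₁⟩ := exists_smul_eq G a oI
  obtain ⟨g₂, hg₂⟩ := exists_smul_eq G c oI
  have h1 : g₁ • b ≠ oI := by
    rw [← hg₁]
    exact fun hh => hab (smul_left_cancel g₁ hh).symm
  have h2 : g₂ • d ≠ oI := by
    rw [← hg₂]
    exact fun hh => hcd (smul_left_cancel g₂ hh).symm
  obtain ⟨t, ht, htt⟩ := h.trans _ _ h1 h2
  refine ⟨g₂⁻¹ * t * g₁, ?_, ?_⟩
  · rw [mul_smul, mul_smul, hg₁, h.fix t ht, inv_smul_eq_iff, hg₂]
  · rw [mul_smul, mul_smul, htt, inv_smul_smul]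

/-- Only the identity fixes three points. -/
theorem fix3 [FaithfulSMul G X] [IsPretransitive G X] (h : PT T oI p) {g : G} {a b c : X}
    (hab : a ≠ b) (hac : a ≠ c) (hbc : b ≠ c) (ha : g • a = a) (hb : g • b = b) (hc : g • c = c) :
    g = 1 := by
  obtain ⟨k, hk⟩ := exists_smul_eq G a oI
  have h1 : k • b ≠ oI := by
    rw [← hk]
    exact fun hh => hab (smul_left_cancel k hh).symm
  have h2 : k • c ≠ oI := by
    rw [← hk]
    exact fun hh => hac (smul_left_cancel k hh).symm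
  have h3 : k • c ≠ k • b := fun hh => hbc (smul_left_cancel k hh).symm
  have key : k * g * k⁻¹ = 1 := by
    apply h.eq_one_of_fix h1 h2 h3
    · rw [← hk, mul_smul, mul_smul, inv_smul_smul, ha]
    · rw [mul_smul, mul_smul, inv_smul_smul, hb]
    · rw [mul_smul, mul_smul, inv_smul_smul, hc]
  have : g = k⁻¹ * (k * g * k⁻¹) * k := by group
  rw [this, key]
  group

end PT

end Cfsg.Agent.Lib.Helper12.DegP1
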