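import Mathlib
import Cfsg.Agent.Lib.Helper12.DegP1

set_option autoImplicit false

/-! Transitive groups of degree `p + 1` and order `(p+1) p d`, `d < p`: the basic data. -/

namespace Cfsg.Agent.Lib.Helper12.DegP1

open MulAction

variable {α : Type*} [Fintype α] [DecidableEq α] {p d : ℕ}

theorem card_stabilizer (hα : Fintype.card α = p + 1) (G : Subgroup (Equiv.Perm α))
    [IsPretransitive G α] (hG : Nat.card G = (p + 1) * p * d) (oI : α) :
    Nat.card (stabilizer G oI) = p * d := by
  have h1 := (stabilizer G oI).card_mul_index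
  rw [index_stabilizer_of_transitive, Nat.card_eq_fintype_card (α := α), hα, hG] at h1
  have : Nat.card (stabilizer G oI) * (p + 1) = (p * d) * (p + 1) := by rw [h1]; ring
  exact Nat.eq_of_mul_eq_mul_right (Nat.succ_pos p) this

theorem exists_PT (hp : p.Prime) (hα : Fintype.card α = p + 1) (G : Subgroup (Equiv.Perm α))
    [IsPretransitive G α] (hG : Nat.card G = (p + 1) * p * d) (hd : d < p) (oI : α) :
    ∃ T : Subgroup G, PT T oI p := by
  classical
  have : Fact p.Prime := ⟨hp⟩
  have hd0 : 0 < d := by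
    rcases Nat.eq_zero_or_pos d with h | h
    · rw [h, mul_zero] at hG
      exact absurd hG Nat.card_pos.ne'
    · exact h
  have hpd : ¬ p ∣ d := fun h => absurd (Nat.le_of_dvd hd0 h) (by omega)
  set S := stabilizer G oI with hS
  have hScard : Nat.card S = p * d := card_stabilizer hα G hG oI
  let P : Sylow p S := default
  have hmul := (P : Subgroup S).card_mul_index
  rw [hScard] at hmul
  have hPcard : Nat.card (P : Subgroup S) = p := by
    obtain ⟨k, hk⟩ := IsPGroup.iff_card.mp P.isPGroup'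
    have hidx := P.not_dvd_index
    rcases k with _ | _ | k
    · exfalso
      rw [hk, pow_zero, one_mul] at hmul
      rw [hmul] at hidx
      exact hidx (dvd_mul_right _ _)
    · rw [hk]; simp
    · exfalso
      rw [hk] at hmul
      have h1 : p * (p * (p ^ k * (P : Subgroup S).index)) = p * d := by
        rw [← hmul]; ring
      have h2 := Nat.eq_of_mul_eq_mul_left hp.pos h1
      exact hpd ⟨_, h2.symm⟩
  have hidx : (P : Subgroup S).index = d := by
    rw [hPcard] at hmul
    exact Nat.eq_of_mul_eq_mul_left hp.pos hmul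
  have hPn : (P : Subgroup S).Normal := by
    have h1 : Nat.card (Sylow p S) ≡ 1 [MOD p] := card_sylow_modEq_one p S
    have h2 : Nat.card (Sylow p S) ∣ d := hidx ▸ P.card_dvd_index
    have h3 : Nat.card (Sylow p S) < p := lt_of_le_of_lt (Nat.le_of_dvd hd0 h2) hd
    have h4 : Nat.card (Sylow p S) = 1 := by
      have := h1
      unfold Nat.ModEq at this
      rw [Nat.mod_eq_of_lt h3, Nat.mod_eq_of_lt hp.one_lt] at this
      exact this
    rw [Sylow.card_eq_index_normalizer P, Subgroup.index_eq_one] at h4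
    exact Subgroup.normalizer_eq_top_iff.mp h4
  let T : Subgroup G := (P : Subgroup S).map S.subtype
  have hTcard : Nat.card T = p := by
    rw [Subgroup.card_map_of_injective (Subgroup.subtype_injective _), hPcard]
  have hTfix : ∀ t ∈ T, t • oI = oI := by
    rintro _ ⟨s, _, rfl⟩
    exact s.2
  have hTnt : ∃ t ∈ T, t ≠ 1 := by
    by_contra hcon
    push Not at hcon
    have : T = ⊥ := (Subgroup.eq_bot_iff_forall T).2 hcon
    rw [this, Subgroup.card_bot] at hTcard
    exact hp.one_lt.ne hTcard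
  obtain ⟨t₀, ht₀, ht₀1⟩ := hTnt
  obtain ⟨o0, ho0⟩ : ∃ a : α, t₀ • a ≠ a := by
    by_contra hcon
    push Not at hcon
    apply ht₀1
    apply Subtype.ext
    ext a
    exact hcon a
  -- orbits
  have horb : ∀ x : α, (∃ t ∈ T, t • x ≠ x) → (orbit T x).ncard = p := by
    rintro x ⟨t, ht, htx⟩
    have h1 : (orbit T x).ncard ∣ p := by
      rw [← hTcard, ← index_stabilizer]
      exact Subgroup.index_dvd_card _
    have h2 : (orbit T x).ncard ≠ 1 := by
      intro h
      apply htx
      rw [Set.ncard_eq_one] at h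
      obtain ⟨b, hb⟩ := h
      have e1 : t • x ∈ orbit T x := ⟨⟨t, ht⟩, rfl⟩
      have e2 : x ∈ orbit T x := mem_orbit_self x
      rw [hb, Set.mem_singleton_iff] at e1 e2
      rw [e1, e2]
    exact ((Nat.dvd_prime hp).mp h1).resolve_left h2
  have hsub : ∀ x : α, x ≠ oI → orbit T x ⊆ {oI}ᶜ := by
    rintro x hx _ ⟨t, rfl⟩ hh
    apply hx
    have hh' : (t : G) • x = oI := hh
    rw [← hTfix t t.2] at hh'
    exact smul_left_cancel _ hh'
  have hcompl : ({oI}ᶜ : Set α).ncard = p := by
    rw [Set.ncard_compl, Set.ncard_singleton, Nat.card_eq_fintype_card, hα]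
    simp
  have ho0I : o0 ≠ oI := by
    rintro rfl
    exact ho0 (hTfix t₀ ht₀)
  have horb0 : orbit T o0 = {oI}ᶜ := by
    apply Set.eq_of_subset_of_ncard_le (hsub o0 ho0I) _ (Set.toFinite _)
    rw [hcompl, horb o0 ⟨t₀, ht₀, ho0⟩]
  have htrans0 : ∀ x : α, x ≠ oI → ∃ t ∈ T, t • o0 = x := by
    intro x hx
    have : x ∈ orbit T o0 := by rw [horb0]; exact hx
    obtain ⟨t, ht⟩ := this
    exact ⟨t.1, t.2, ht⟩
  have hstab0 : ∀ t ∈ T, t • o0 = o0 → t = 1 := by
    intro t ht hto
    have h1 := (stabilizer T o0).card_mul_index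
    rw [index_stabilizer, horb o0 ⟨t₀, ht₀, ho0⟩, hTcard] at h1
    have h2 : Nat.card (stabilizer T o0) = 1 := by
      have := hp.pos
      nlinarith
    rw [Subgroup.card_eq_one] at h2
    have h3 : (⟨t, ht⟩ : T) ∈ stabilizer T o0 := hto
    rw [h2, Subgroup.mem_bot] at h3
    exact congrArg Subtype.val h3
  have hcyc : IsCyclic T := isCyclic_of_prime_card hTcard
  have hTc : ∀ s ∈ T, ∀ t ∈ T, s * t = t * s := by
    intro s hs t ht
    have := (IsCyclic.commGroup (α := T)).mul_comm ⟨s, hs⟩ ⟨t, ht⟩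
    exact congrArg Subtype.val this
  refine ⟨T, hp, hTcard, hTfix, ?_, ?_, ?_⟩
  · rintro g hg _ ⟨s, hs, rfl⟩
    exact ⟨⟨g, hg⟩ * s * ⟨g, hg⟩⁻¹, hPn.conj_mem s hs ⟨g, hg⟩, rfl⟩
  · intro x y hx hy
    obtain ⟨s, hs, rfl⟩ := htrans0 x hx
    obtain ⟨t, ht, rfl⟩ := htrans0 y hy
    exact ⟨t * s⁻¹, T.mul_mem ht (T.inv_mem hs), by rw [mul_smul, inv_smul_smul]⟩
  · intro t ht x hx htx
    obtain ⟨s, hs, rfl⟩ := htrans0 x hx
    apply hstab0 t ht
    rw [← mul_smul, hTc t ht s hs, mul_smul] at htx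
    exact smul_left_cancel s htx

end Cfsg.Agent.Lib.Helper12.DegP1
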