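import Mathlib
import Cfsg.Agent.Lib.Helper19.ZassCore
import Cfsg.Agent.Lib.Helper19.ZassCoord
import Cfsg.Agent.Lib.Helper19.KTCore

set_option autoImplicit false

/-! In a sharply 3-transitive group of even degree whose two-point stabiliser `D` is abelian, the
involution interchanging the two points inverts `D`; hence the group is `PGL(2, F)`. -/

namespace Cfsg.Agent.Lib.Helper12.PGLAbel

open OnePoint Matrix Cfsg.Agent.Lib.Helper19

theorem inverts_of_abelian {G X : Type*} [Group G] [Finite G] [MulAction G X]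
    (T D : Subgroup G) (u : G) (oI o0 : X) (hne : o0 ≠ oI)
    (hTc : ∀ s ∈ T, ∀ t ∈ T, s * t = t * s)
    (hTfix : ∀ t ∈ T, t • oI = oI)
    (hTtrans : ∀ x : X, x ≠ oI → ∃ t ∈ T, t • o0 = x)
    (hTfree : ∀ t ∈ T, t • o0 = o0 → t = 1)
    (hDc : ∀ c ∈ D, ∀ d ∈ D, c * d = d * c)
    (hDfixI : ∀ d ∈ D, d • oI = oI) (hDfix0 : ∀ d ∈ D, d • o0 = o0)
    (hDT : ∀ d ∈ D, ∀ t ∈ T, d * t * d⁻¹ ∈ T)
    (hstab : ∀ g : G, g • oI = oI → ∃ t ∈ T, ∃ d ∈ D, g = t * d)
    (e : G) (heT : e ∈ T) (he1 : e ≠ 1)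
    (hDreg : ∀ t ∈ T, t ≠ 1 → ∃ d ∈ D, d * e * d⁻¹ = t)
    (hodd : Odd (Nat.card T))
    (hu1 : u • oI = o0) (hu2 : u • o0 = oI) (huu : u * u = 1) (hue : u • e • o0 = e • o0)
    (huD : ∀ d ∈ D, u * d * u⁻¹ ∈ D)
    (hfix3 : ∀ (g : G) (a b c : X), a ≠ b → a ≠ c → b ≠ c → g • a = a → g • b = b → g • c = c →
      g = 1) :
    ∀ d ∈ D, u * d * u⁻¹ = d⁻¹ := by
  classical
  obtain ⟨F, iF, iFt, τ, hτT, hτsurj, hτinj, hτadd, hτ1, hτD, hcardF⟩ :=
    exists_field_coord T D hTc hDc hDT e heT he1 hDreg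
  have hF : ringChar F ≠ 2 := by
    intro h
    have := FiniteField.even_card_of_char_two h
    rw [hcardF] at this
    obtain ⟨k, hk⟩ := hodd
    omega
  have h2F : (2 : F) ≠ 0 := Ring.two_ne_zero hF
  have hτ0 : τ 0 = 1 := by
    have := hτadd 0 0
    rw [add_zero] at this
    exact (mul_eq_left.mp this.symm)
  have hτneg : ∀ a, τ (-a) = (τ a)⁻¹ := by
    intro a
    rw [eq_inv_iff_mul_eq_one, ← hτadd, neg_add_cancel, hτ0]
  -- points
  have ho1I : e • o0 ≠ oI := by
    intro h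
    rw [← hTfix e heT] at h
    exact hne (smul_left_cancel e h)
  have ho10 : e • o0 ≠ o0 := fun h => he1 (hTfree e heT h)
  have hfree : ∀ d ∈ D, d * e * d⁻¹ = e → d = 1 := by
    intro d hd h
    apply hfix3 d oI o0 (e • o0) hne.symm ho1I.symm ho10.symm (hDfixI d hd) (hDfix0 d hd)
    have : d * e = e * d := by rw [mul_inv_eq_iff_eq_mul] at h; exact h
    rw [← mul_smul, this, mul_smul, hDfix0 d hd]
  -- the scalars
  choose κ hκ0 hκ using fun d : D => hτD d d.2
  have hκuniq : ∀ (d : D) (k : F), (d : G) * τ 1 * (d : G)⁻¹ = τ k → κ d = k := by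
    intro d k h
    have := hκ d 1
    rw [mul_one, h] at this
    exact (hτinj this).symm
  have hκmul : ∀ d d' : D, κ (d * d') = κ d * κ d' := by
    intro d d'
    apply hκuniq
    have : ((d * d' : D) : G) * τ 1 * ((d * d' : D) : G)⁻¹
        = (d : G) * ((d' : G) * τ 1 * (d' : G)⁻¹) * (d : G)⁻¹ := by
      rw [Subgroup.coe_mul]; group
    rw [this, hκ d' 1, hκ d, mul_one]
  have hκone : κ 1 = 1 := by
    apply hκuniq
    simp
  have hκinj : Function.Injective κ := by
    intro d d' h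
    have h1 : ((d' : G)⁻¹ * d) * e * ((d' : G)⁻¹ * d)⁻¹ = e := by
      have e1 := hκ d 1
      have e2 := hκ d' 1
      rw [h, ← e2, hτ1] at e1
      calc ((d' : G)⁻¹ * d) * e * ((d' : G)⁻¹ * d)⁻¹
          = (d' : G)⁻¹ * ((d : G) * e * (d : G)⁻¹) * d' := by group
        _ = e := by rw [e1]; group
    have h2 := hfree _ (D.mul_mem (D.inv_mem d'.2) d.2) h1
    exact Subtype.ext (inv_mul_eq_one.mp h2).symm
  have hκsurj : ∀ a : F, a ≠ 0 → ∃ d : D, κ d = a := by
    intro a ha
    have hτa : τ a ≠ 1 := by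
      rw [← hτ0]; exact fun h => ha (hτinj h)
    obtain ⟨d, hd, hde⟩ := hDreg (τ a) (hτT a) hτa
    exact ⟨⟨d, hd⟩, hκuniq ⟨d, hd⟩ a (by rw [hτ1]; exact hde)⟩
  -- the coordinate
  let γ₀ : OnePoint F → X := fun y => y.elim oI (fun a => τ a • o0)
  have hγI : γ₀ ∞ = oI := rfl
  have hγc : ∀ a : F, γ₀ (a : OnePoint F) = τ a • o0 := fun a => rfl
  have hγcne : ∀ a : F, γ₀ (a : OnePoint F) ≠ oI := by
    intro a h
    rw [hγc, ← hTfix (τ a) (hτT a)] at h
    exact hne (smul_left_cancel _ h)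
  have hγinj : Function.Injective γ₀ := by
    intro y z hyz
    induction y using OnePoint.rec with
    | infty =>
      induction z using OnePoint.rec with
      | infty => rfl
      | coe b => exact absurd hyz.symm (hγcne b)
    | coe a =>
      induction z using OnePoint.rec with
      | infty => exact absurd hyz (hγcne a)
      | coe b =>
        rw [hγc, hγc] at hyz
        have h1 : ((τ b)⁻¹ * τ a) • o0 = o0 := by
          rw [mul_smul, hyz, inv_smul_smul]
        have h2 := hTfree _ (mul_mem (inv_mem (hτT b)) (hτT a)) h1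
        rw [hτinj (inv_mul_eq_one.mp h2).symm]
  have hγsurj : Function.Surjective γ₀ := by
    intro x
    by_cases hx : x = oI
    · exact ⟨∞, hx.symm⟩
    · obtain ⟨t, ht, htx⟩ := hTtrans x hx
      obtain ⟨a, rfl⟩ := hτsurj t ht
      exact ⟨(a : OnePoint F), htx⟩
  have hγ0 : γ₀ ((0 : F) : OnePoint F) = o0 := by rw [hγc, hτ0, one_smul]
  have hγcinj : ∀ a b : F, γ₀ (a : OnePoint F) = γ₀ (b : OnePoint F) → a = b :=
    fun a b h => OnePoint.coe_injective (hγinj h)
  -- actions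
  have hTact : ∀ b a : F, τ b • γ₀ (a : OnePoint F) = γ₀ ((a + b : F) : OnePoint F) := by
    intro b a
    rw [hγc, hγc, ← mul_smul, ← hτadd, add_comm]
  have hDact : ∀ (d : D) (a : F), (d : G) • γ₀ (a : OnePoint F) = γ₀ ((κ d * a : F) : OnePoint F) := by
    intro d a
    rw [hγc, hγc, ← hκ d a]
    nth_rewrite 2 [← hDfix0 d d.2]
    simp only [← mul_smul]
    congr 1
    group
  have huinv : u⁻¹ = u := inv_eq_of_mul_eq_one_left huu
  have hune : u ≠ 1 := by
    rintro rfl
    rw [one_smul] at hu1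
    exact hne hu1.symm
  -- the function `υ`
  have hυex : ∀ x : F, x ≠ 0 → ∃ y : F, y ≠ 0 ∧ u • γ₀ (x : OnePoint F) = γ₀ (y : OnePoint F) := by
    intro x hx
    obtain ⟨y, hy⟩ := hγsurj (u • γ₀ (x : OnePoint F))
    have hy1 : y ≠ ∞ := by
      rintro rfl
      rw [hγI, ← hu2] at hy
      have := smul_left_cancel u hy
      rw [← hγ0] at this
      exact hx (hγcinj _ _ this).symm
    have hy2 : y ≠ ((0 : F) : OnePoint F) := by
      rintro rfl
      rw [hγ0, ← hu1] at hy
      exact hγcne x (smul_left_cancel u hy).symm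
    obtain ⟨c, rfl⟩ := OnePoint.ne_infty_iff_exists.mp hy1
    exact ⟨c, fun h => hy2 (by rw [h]), hy.symm⟩
  let υ : F → F := fun x => if hx : x ≠ 0 then (hυex x hx).choose else 0
  have hυ0 : ∀ x : F, x ≠ 0 → υ x ≠ 0 := by
    intro x hx
    simp only [υ, dif_pos hx]
    exact (hυex x hx).choose_spec.1
  have hυ : ∀ x : F, x ≠ 0 → u • γ₀ (x : OnePoint F) = γ₀ (υ x : OnePoint F) := by
    intro x hx
    simp only [υ, dif_pos hx]
    exact (hυex x hx).choose_spec.2
  have hυυ : ∀ x : F, x ≠ 0 → υ (υ x) = x := by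
    intro x hx
    apply hγcinj
    rw [← hυ _ (hυ0 x hx), ← hυ x hx, ← mul_smul, huu, one_smul]
  -- the automorphism induced by `u`
  let σ : D → D := fun d => ⟨u * d * u⁻¹, huD d d.2⟩
  have hσ : ∀ d : D, ((σ d : D) : G) = u * d * u⁻¹ := fun d => rfl
  have hσmul : ∀ d d' : D, σ (d * d') = σ d * σ d' := by
    intro d d'
    apply Subtype.ext
    rw [Subgroup.coe_mul, hσ, hσ, hσ, Subgroup.coe_mul]
    group
  have hσone : σ 1 = 1 := by
    apply Subtype.ext
    rw [hσ]
    simp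
  have hσσ : ∀ d : D, σ (σ d) = d := by
    intro d
    apply Subtype.ext
    rw [hσ, hσ, huinv]
    calc u * (u * (d : G) * u) * u = (u * u) * d * (u * u) := by group
      _ = d := by rw [huu, one_mul, mul_one]
  have hυD : ∀ (d : D) (x : F), x ≠ 0 → υ (κ d * x) = κ (σ d) * υ x := by
    intro d x hx
    apply hγcinj
    rw [← hυ _ (mul_ne_zero (hκ0 d) hx), ← hDact, ← mul_smul]
    have e3 : u * (d : G) = ((σ d : D) : G) * u := by
      rw [hσ]; group
    rw [e3, mul_smul, hυ x hx, hDact]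
  have hγ1 : γ₀ ((1 : F) : OnePoint F) = e • o0 := by rw [hγc, hτ1]
  have hc1 : υ 1 = 1 := by
    apply hγcinj
    rw [← hυ 1 one_ne_zero, hγ1, hue]
  -- `d * σ d` has square `1`
  have hzsq : ∀ d : D, (d * σ d) * (d * σ d) = 1 := by
    intro d
    set z : D := d * σ d with hz
    have hσz : σ z = z := by
      rw [hz, hσmul, hσσ]
      exact Subtype.ext (hDc _ (σ d).2 _ d.2)
    have hcomm : u * (z : G) = z * u := by
      have := congrArg Subtype.val hσz
      rw [hσ, mul_inv_eq_iff_eq_mul] at this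
      exact this
    have hfixz : ∀ w : G, u * w = w * u → u • w • e • o0 = w • e • o0 := by
      intro w hw
      rw [← mul_smul, hw, mul_smul, hue]
    have hDone : ∀ w ∈ D, w • e • o0 = e • o0 → w = 1 := by
      intro w hw h
      exact hfix3 w oI o0 (e • o0) hne.symm ho1I.symm ho10.symm (hDfixI w hw) (hDfix0 w hw) h
    have h1 := hfixz z hcomm
    have h2 := hfixz ((z : G) * z) (by
      calc u * ((z : G) * z) = (u * z) * z := by group
        _ = (z * u) * z := by rw [hcomm]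
        _ = z * (u * z) := by group
        _ = z * (z * u) := by rw [hcomm]
        _ = (z : G) * z * u := by group)
    by_contra hcon
    have hzz : (z : G) * z ≠ 1 := fun h => hcon (Subtype.ext h)
    have hz1 : (z : G) ≠ 1 := by
      intro h
      apply hzz
      rw [h, one_mul]
    apply hune
    apply hfix3 u (e • o0) ((z : G) • e • o0) (((z : G) * z) • e • o0) _ _ _ hue h1 h2
    · exact fun h => hz1 (hDone z z.2 h.symm)
    · exact fun h => hzz (hDone _ (D.mul_mem z.2 z.2) h.symm)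
    · intro h
      rw [mul_smul] at h
      exact hz1 (hDone z z.2 (smul_left_cancel _ h).symm)
  have hsq : ∀ a x : F, a ≠ 0 → IsSquare a → x ≠ 0 → υ (a * x) = a⁻¹ * υ x := by
    rintro a x ha ⟨r, rfl⟩ hx
    have hr : r ≠ 0 := fun h => ha (by rw [h, mul_zero])
    obtain ⟨d, rfl⟩ := hκsurj r hr
    rw [← hκmul, hυD _ _ hx, hσmul, hκmul]
    congr 1
    have h := congrArg κ (hzsq d)
    rw [hκmul, hκmul, hκone] at h
    rw [hκmul]
    apply eq_inv_of_mul_eq_one_left
    linear_combination h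
  have hυneg : ∀ x : F, x ≠ 0 → υ (-x) = -υ x := by
    intro x hx
    obtain ⟨j, hj⟩ := hκsurj (-1) (by simp)
    have hjj : j * j = 1 := by
      apply hκinj
      rw [hκmul, hj, hκone]; ring
    have h1 : κ (σ j) * κ (σ j) = 1 := by
      rw [← hκmul, ← hσmul, hjj, hσone, hκone]
    have h2 : κ (σ j) ≠ 1 := by
      intro h
      have h3 : σ j = 1 := hκinj (by rw [h, hκone])
      have h4 : j = 1 := by rw [← hσσ j, h3, hσone]
      rw [h4, hκone] at hj
      apply h2F
      linear_combination hj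
    have h3 : κ (σ j) = -1 := by
      have : (κ (σ j) - 1) * (κ (σ j) + 1) = 0 := by linear_combination h1
      rcases mul_eq_zero.mp this with h | h
      · exact absurd (sub_eq_zero.mp h) h2
      · linear_combination h
    have := hυD j x hx
    rw [hj, h3, neg_one_mul, neg_one_mul] at this
    exact this
  set c := υ 1 with hc
  have hc0 : c ≠ 0 := hυ0 1 one_ne_zero
  have hυc : υ c = 1 := hυυ 1 one_ne_zero
  -- the relation
  have hfixI : (u * τ (-c) * (u * τ 1 * u)) • oI = oI := by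
    simp only [mul_smul]
    rw [hu1, ← hγ0, hTact, zero_add, hυ 1 one_ne_zero, hTact, ← hc, add_neg_cancel, hγ0, hu2]
  obtain ⟨t', ht', d', hd', hrel⟩ := hstab _ hfixI
  obtain ⟨β, rfl⟩ := hτsurj t' ht'
  set k := κ ⟨d', hd'⟩ with hk
  have hk0 : k ≠ 0 := hκ0 _
  have hrel' : ∀ x : F, (u * τ (-c) * (u * τ 1 * u)) • γ₀ (x : OnePoint F)
      = γ₀ ((k * x + β : F) : OnePoint F) := by
    intro x
    rw [hrel, mul_smul]
    have := hDact ⟨d', hd'⟩ x
    rw [show ((⟨d', hd'⟩ : D) : G) = d' from rfl] at this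
    rw [this, hTact]
  have hβ : β = -1 := by
    have h := hrel' 0
    simp only [mul_smul] at h
    rw [hγ0, hu2, hTfix _ (hτT 1), hu1, ← hγ0, hTact, zero_add, hυ _ (neg_ne_zero.mpr hc0),
      hυneg c hc0, hυc, mul_zero, zero_add] at h
    exact (hγcinj _ _ h).symm
  have hkc : k = -1 / c := by
    have h := hrel' (-c)
    simp only [mul_smul] at h
    rw [hυ _ (neg_ne_zero.mpr hc0), hυneg c hc0, hυc, hTact, neg_add_cancel, hγ0, hu2,
      hTfix _ (hτT _), hu1, ← hγ0] at h
    have h' := hγcinj _ _ h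
    rw [hβ] at h'
    field_simp
    linear_combination h'
  have hcsq : IsSquare c := by
    rw [hc1]; exact ⟨1, by ring⟩
  have hfe : ∀ x : F, x ≠ 0 → υ x + 1 ≠ 0 → υ (υ x + 1) = c - υ (x / c + 1) := by
    intro x hx hx1
    have h := hrel' x
    simp only [mul_smul] at h
    rw [hυ x hx, hTact, hυ _ hx1, hTact] at h
    have hw : υ (υ x + 1) + -c ≠ 0 := by
      intro h0
      rw [h0, hγ0, hu2] at h
      exact hγcne _ h.symm
    rw [hυ _ hw] at h
    have h' := hγcinj _ _ h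
    have h3 : υ (υ x + 1) + -c = υ (k * x + β) := by
      rw [← h', hυυ _ hw]
    have h4 : k * x + β = -(x / c + 1) := by
      rw [hkc, hβ]; field_simp; ring
    have h5 : x / c + 1 ≠ 0 := by
      intro h0
      have h6 := hυ0 _ hw
      rw [h', h4, h0, neg_zero] at h6
      exact h6 rfl
    rw [h4, hυneg _ h5] at h3
    linear_combination h3
  have hmain := kt_core hF υ c hc0 hcsq hc.symm hsq hfe
  intro d hd
  have h1 := hυD ⟨d, hd⟩ 1 one_ne_zero
  rw [mul_one, hmain _ (hκ0 _), ← hc, hc1, mul_one] at h1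
  have h2 : σ ⟨d, hd⟩ = (⟨d, hd⟩ : D)⁻¹ := by
    apply hκinj
    rw [← h1]
    have h3 : κ (⟨d, hd⟩ : D)⁻¹ * κ ⟨d, hd⟩ = 1 := by
      rw [← hκmul, inv_mul_cancel, hκone]
    rw [one_div]
    exact (eq_inv_of_mul_eq_one_left h3).symm
  exact congrArg Subtype.val h2

end Cfsg.Agent.Lib.Helper12.PGLAbel
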