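import Mathlib
import Cfsg.Agent.Lib.Helper12.DegP1
import Cfsg.Agent.Lib.Helper12.PGLAbel

set_option autoImplicit false

/-! The sharply 3-transitive case: `PGL(2, p)`. -/

namespace Cfsg.Agent.Lib.Helper12.DegP1

open MulAction

variable {G X : Type*} [Group G] [MulAction G X]

namespace PT

variable {T : Subgroup G} {oI o0 : X} {p : ℕ}

theorem card_stab [Finite G] (h : PT T oI p) (h0 : o0 ≠ oI) :
    Nat.card (stabilizer G oI) = p * Nat.card ↥(stabilizer G oI ⊓ stabilizer G o0) := by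
  set D : Subgroup G := stabilizer G oI ⊓ stabilizer G o0 with hD
  let f : T × D → stabilizer G oI := fun x => ⟨x.1 * x.2, by
    rw [mem_stabilizer_iff, mul_smul, (Subgroup.mem_inf.mp x.2.2).1, h.fix _ x.1.2]⟩
  have hf : Function.Bijective f := by
    constructor
    · rintro ⟨t, d⟩ ⟨t', d'⟩ hh
      have hh' : (t : G) * d = t' * d' := congrArg Subtype.val hh
      have h1 : (t : G) • o0 = (t' : G) • o0 := by
        have e1 : ((t : G) * d) • o0 = (t : G) • o0 := by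
          rw [mul_smul, (Subgroup.mem_inf.mp d.2).2]
        have e2 : ((t' : G) * d') • o0 = (t' : G) • o0 := by
          rw [mul_smul, (Subgroup.mem_inf.mp d'.2).2]
        rw [← e1, ← e2, hh']
      have h2 : (t : G) = t' := h.eq_of_smul_eq t.2 t'.2 h0 h1
      rw [h2] at hh'
      have h3 : (d : G) = d' := mul_left_cancel hh'
      exact Prod.ext (Subtype.ext h2) (Subtype.ext h3)
    · rintro ⟨g, hg⟩
      obtain ⟨t, ht, d, hdI, hd0, rfl⟩ := h.stab_decomp h0 hg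
      exact ⟨(⟨t, ht⟩, ⟨d, Subgroup.mem_inf.mpr ⟨hdI, hd0⟩⟩), rfl⟩
  rw [← Nat.card_congr (Equiv.ofBijective f hf), Nat.card_prod, h.card]

/-- If the two-point stabiliser has order `p - 1` it is transitive on `T \ 1` by conjugation. -/
theorem conj_reg [Finite G] [FaithfulSMul G X] (h : PT T oI p) (h0 : o0 ≠ oI)
    (hD : Nat.card ↥(stabilizer G oI ⊓ stabilizer G o0) = p - 1) {e : G} (heT : e ∈ T)
    (he1 : e ≠ 1) :
    ∀ t ∈ T, t ≠ 1 → ∃ d ∈ stabilizer G oI ⊓ stabilizer G o0, d * e * d⁻¹ = t := by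
  classical
  set D : Subgroup G := stabilizer G oI ⊓ stabilizer G o0 with hDdef
  let f : D → {t : T // t ≠ 1} := fun d => ⟨⟨d * e * (d : G)⁻¹,
    h.norm d (Subgroup.mem_inf.mp d.2).1 e heT⟩, by
      intro hh
      have h1 : (d : G) * e * (d : G)⁻¹ = 1 := congrArg Subtype.val hh
      apply he1
      rw [mul_inv_eq_one] at h1
      exact mul_left_cancel (h1.trans (mul_one _).symm)⟩
  have hf : Function.Injective f := by
    intro c d hcd
    have h1 : (c : G) * e * (c : G)⁻¹ = d * e * (d : G)⁻¹ :=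
      congrArg (fun z : {t : T // t ≠ 1} => ((z : T) : G)) hcd
    have h2 : ((d : G)⁻¹ * c) * e * ((d : G)⁻¹ * c)⁻¹ = e := by
      calc ((d : G)⁻¹ * c) * e * ((d : G)⁻¹ * c)⁻¹ = (d : G)⁻¹ * ((c : G) * e * (c : G)⁻¹) * d := by
            group
        _ = e := by rw [h1]; group
    have hm : (d : G)⁻¹ * c ∈ D := D.mul_mem (D.inv_mem d.2) c.2
    have := h.eq_one_of_commute h0 (Subgroup.mem_inf.mp hm).1 (Subgroup.mem_inf.mp hm).2 heT he1 h2
    exact Subtype.ext (inv_mul_eq_one.mp this).symm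
  have hcard : Nat.card {t : T // t ≠ 1} = p - 1 := by
    have := Fintype.ofFinite T
    rw [Nat.card_eq_fintype_card, Fintype.card_subtype_compl, Fintype.card_subtype_eq,
      ← Nat.card_eq_fintype_card, h.card]
  have hbij : Function.Bijective f := by
    rw [Nat.bijective_iff_injective_and_card]
    exact ⟨hf, by rw [hD, hcard]⟩
  intro t ht ht1
  obtain ⟨d, hd⟩ := hbij.2 ⟨⟨t, ht⟩, fun hh => ht1 (congrArg Subtype.val hh)⟩
  exact ⟨d, d.2, congrArg (fun z : {t : T // t ≠ 1} => ((z : T) : G)) hd⟩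

theorem three_trans [Finite G] [FaithfulSMul G X] [IsPretransitive G X] (h : PT T oI p)
    (h0 : o0 ≠ oI) (hD : Nat.card ↥(stabilizer G oI ⊓ stabilizer G o0) = p - 1) :
    ∀ x₁ x₂ x₃ y₁ y₂ y₃ : X, x₁ ≠ x₂ → x₁ ≠ x₃ → x₂ ≠ x₃ → y₁ ≠ y₂ → y₁ ≠ y₃ → y₂ ≠ y₃ →
      ∃ g : G, g • x₁ = y₁ ∧ g • x₂ = y₂ ∧ g • x₃ = y₃ := by
  intro x₁ x₂ x₃ y₁ y₂ y₃ hx12 hx13 hx23 hy12 hy13 hy23
  obtain ⟨g₁, hg₁a, hg₁b⟩ := h.two_trans hx12 h0.symm
  obtain ⟨g₂, hg₂a, hg₂b⟩ := h.two_trans hy12 h0.symm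
  have hxI : g₁ • x₃ ≠ oI := by
    rw [← hg₁a]; exact fun hh => hx13 (smul_left_cancel g₁ hh).symm
  have hx0 : g₁ • x₃ ≠ o0 := by
    rw [← hg₁b]; exact fun hh => hx23 (smul_left_cancel g₁ hh).symm
  have hyI : g₂ • y₃ ≠ oI := by
    rw [← hg₂a]; exact fun hh => hy13 (smul_left_cancel g₂ hh).symm
  have hy0 : g₂ • y₃ ≠ o0 := by
    rw [← hg₂b]; exact fun hh => hy23 (smul_left_cancel g₂ hh).symm
  obtain ⟨s, hs, hsx⟩ := h.trans o0 _ h0 hxI
  obtain ⟨t, ht, hty⟩ := h.trans o0 _ h0 hyI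
  have hs1 : s ≠ 1 := by
    rintro rfl
    rw [one_smul] at hsx
    exact hx0 hsx.symm
  have ht1 : t ≠ 1 := by
    rintro rfl
    rw [one_smul] at hty
    exact hy0 hty.symm
  obtain ⟨d, hd, hdst⟩ := h.conj_reg h0 hD hs hs1 t ht ht1
  have hdI := (Subgroup.mem_inf.mp hd).1
  have hd0 := (Subgroup.mem_inf.mp hd).2
  rw [mem_stabilizer_iff] at hdI hd0
  refine ⟨g₂⁻¹ * d * g₁, ?_, ?_, ?_⟩
  · rw [mul_smul, mul_smul, hg₁a, hdI, inv_smul_eq_iff, hg₂a]
  · rw [mul_smul, mul_smul, hg₁b, hd0, inv_smul_eq_iff, hg₂b]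
  · rw [mul_smul, mul_smul, inv_smul_eq_iff, ← hsx, ← hty, ← hdst]
    have : d⁻¹ • o0 = o0 := by rw [inv_smul_eq_iff, hd0]
    rw [mul_smul, mul_smul, this]

/-- The sharply 3-transitive case for odd `p`. -/
theorem pgl [Finite G] [FaithfulSMul G X] [IsPretransitive G X] (h : PT T oI p) (hp2 : p ≠ 2)
    (h0 : o0 ≠ oI) (hD : Nat.card ↥(stabilizer G oI ⊓ stabilizer G o0) = p - 1) :
    ∃ (F : Type) (_ : Field F) (_ : Fintype F), Fintype.card F = p ∧
      Nonempty (G ≃* Matrix.ProjGenLinGroup (Fin 2) F) := by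
  classical
  set D : Subgroup G := stabilizer G oI ⊓ stabilizer G o0 with hDdef
  have hDI : ∀ d ∈ D, d • oI = oI := fun d hd => (Subgroup.mem_inf.mp hd).1
  have hD0 : ∀ d ∈ D, d • o0 = o0 := fun d hd => (Subgroup.mem_inf.mp hd).2
  obtain ⟨e, heT, he1⟩ : ∃ t ∈ T, t ≠ 1 := by
    by_contra hcon
    push Not at hcon
    have : T = ⊥ := (Subgroup.eq_bot_iff_forall T).2 hcon
    have h1 := h.card
    rw [this, Subgroup.card_bot] at h1
    exact h.prime.one_lt.ne h1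
  have h3 := h.three_trans h0 hD
  have ho1I : e • o0 ≠ oI := h.smul_ne heT h0
  have ho10 : e • o0 ≠ o0 := fun hh => he1 (h.free e heT o0 h0 hh)
  obtain ⟨u, hu1, hu2, hue⟩ := h3 oI o0 (e • o0) o0 oI (e • o0) h0.symm ho1I.symm ho10.symm h0
    ho10.symm ho1I.symm
  have hfix3 : ∀ (g : G) (a b c : X), a ≠ b → a ≠ c → b ≠ c → g • a = a → g • b = b → g • c = c →
      g = 1 := fun g a b c hab hac hbc ha hb hc => h.fix3 hab hac hbc ha hb hc
  have huu : u * u = 1 := by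
    apply hfix3 _ oI o0 (e • o0) h0.symm ho1I.symm ho10.symm
    · rw [mul_smul, hu1, hu2]
    · rw [mul_smul, hu2, hu1]
    · rw [mul_smul, hue, hue]
  have huinv : u⁻¹ = u := inv_eq_of_mul_eq_one_left huu
  have hTtrans : ∀ x : X, x ≠ oI → ∃ t ∈ T, t • o0 = x := fun x hx => h.trans o0 x h0 hx
  have hTfree : ∀ t ∈ T, t • o0 = o0 → t = 1 := fun t ht => h.free t ht o0 h0
  have hDc : ∀ c ∈ D, ∀ d ∈ D, c * d = d * c := fun c hc d hd =>
    h.stab_comm h0 (hDI c hc) (hD0 c hc) (hDI d hd) (hD0 d hd)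
  have hDT : ∀ d ∈ D, ∀ t ∈ T, d * t * d⁻¹ ∈ T := fun d hd t ht => h.norm d (hDI d hd) t ht
  have hstab : ∀ g : G, g • oI = oI → ∃ t ∈ T, ∃ d ∈ D, g = t * d := by
    intro g hg
    obtain ⟨t, ht, d, hdI, hd0, rfl⟩ := h.stab_decomp h0 hg
    exact ⟨t, ht, d, Subgroup.mem_inf.mpr ⟨hdI, hd0⟩, rfl⟩
  have hDreg := h.conj_reg h0 hD heT he1
  have huD : ∀ d ∈ D, u * d * u⁻¹ ∈ D := by
    intro d hd
    rw [huinv]
    refine Subgroup.mem_inf.mpr ⟨?_, ?_⟩
    · rw [mem_stabilizer_iff, mul_smul, mul_smul, hu1, hD0 d hd, hu2]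
    · rw [mem_stabilizer_iff, mul_smul, mul_smul, hu2, hDI d hd, hu1]
  have hodd : Odd (Nat.card T) := by
    rw [h.card]
    exact h.prime.odd_of_ne_two hp2
  have hud := PGLAbel.inverts_of_abelian T D u oI o0 h0 h.comm h.fix hTtrans hTfree hDc hDI hD0 hDT
    hstab e heT he1 hDreg hodd hu1 hu2 huu hue huD hfix3
  have hgen : Subgroup.closure ((T : Set G) ∪ (D : Set G) ∪ {u}) = ⊤ := by
    rw [eq_top_iff]
    intro g _
    have hTle : ∀ t ∈ T, t ∈ Subgroup.closure ((T : Set G) ∪ (D : Set G) ∪ {u}) := fun t ht =>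
      Subgroup.subset_closure (Or.inl (Or.inl ht))
    have hDle : ∀ t ∈ D, t ∈ Subgroup.closure ((T : Set G) ∪ (D : Set G) ∪ {u}) := fun t ht =>
      Subgroup.subset_closure (Or.inl (Or.inr ht))
    have hule : u ∈ Subgroup.closure ((T : Set G) ∪ (D : Set G) ∪ {u}) :=
      Subgroup.subset_closure (Or.inr rfl)
    have hS : ∀ g : G, g • oI = oI → g ∈ Subgroup.closure ((T : Set G) ∪ (D : Set G) ∪ {u}) := by
      intro g hg
      obtain ⟨t, ht, d, hd, rfl⟩ := hstab g hg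
      exact Subgroup.mul_mem _ (hTle t ht) (hDle d hd)
    by_cases hg : g • oI = oI
    · exact hS g hg
    · obtain ⟨t, ht, htg⟩ := hTtrans _ hg
      have h2 : (u * (t⁻¹ * g)) • oI = oI := by
        rw [mul_smul, mul_smul, ← htg, inv_smul_smul, hu2]
      have : g = t * (u * (u * (t⁻¹ * g))) := by
        calc g = t * ((u * u) * (t⁻¹ * g)) := by rw [huu]; group
          _ = t * (u * (u * (t⁻¹ * g))) := by group
      rw [this]
      exact Subgroup.mul_mem _ (hTle t ht) (Subgroup.mul_mem _ hule (hS _ h2))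
  obtain ⟨F, iF, iFt, hF, hiso⟩ := Cfsg.Agent.Lib.Helper19.zassenhaus_core T D u oI o0 h0 h.comm h.fix
    hTtrans hTfree hDc hDI hD0 hDT e heT he1 hDreg hu1 hu2 hud hgen h3
  exact ⟨F, iF, iFt, by rw [hF, h.card], hiso⟩

end PT

/-- `PGL_n` of isomorphic rings. -/
theorem nonempty_pgl_equiv {n : Type*} [Fintype n] [DecidableEq n] {R S : Type*} [CommRing R]
    [CommRing S] (e : R ≃+* S) :
    Nonempty (Matrix.ProjGenLinGroup n R ≃* Matrix.ProjGenLinGroup n S) := by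
  let E : Matrix.GeneralLinearGroup n R ≃* Matrix.GeneralLinearGroup n S :=
    Units.mapEquiv (RingEquiv.mapMatrix e).toMulEquiv
  have hmap : (Subgroup.center (Matrix.GeneralLinearGroup n R)).map E.toMonoidHom
      = Subgroup.center (Matrix.GeneralLinearGroup n S) := by
    ext x
    simp only [Subgroup.mem_map, Subgroup.mem_center_iff]
    constructor
    · rintro ⟨y, hy, rfl⟩ g
      obtain ⟨g', rfl⟩ := E.surjective g
      have := hy g'
      change E g' * E y = E y * E g'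
      rw [← map_mul, ← map_mul, this]
    · intro hx
      refine ⟨E.symm x, fun g => ?_, by simp⟩
      apply E.injective
      rw [map_mul, map_mul, MulEquiv.apply_symm_apply]
      exact hx _
  exact ⟨QuotientGroup.congr _ _ E hmap⟩

end Cfsg.Agent.Lib.Helper12.DegP1
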