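import Mathlib

/-!
# Piece CT of Huppert's theorem (S3360): two counting lemmas for conjugation actions
-/

set_option autoImplicit false

namespace Cfsg.Agent.Lib.Helper12.HupCT

theorem card_modEq_of_conj {G : Type*} [Group G] [Finite G] {s : ℕ} [Fact s.Prime] (x : G)
    (hx : x ^ s = 1) (X : Subgroup G) (hX : ∀ l ∈ X, x * l * x⁻¹ ∈ X) :
    Nat.card X ≡ Nat.card (X ⊓ Subgroup.centralizer {x} : Subgroup G) [MOD s] := by
  classical
  let f : Function.End X := fun l => ⟨x * l * x⁻¹, hX l l.2⟩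
  have hpow : ∀ (k : ℕ) (l : X), (((f ^ k) l : X) : G) = x ^ k * l * (x ^ k)⁻¹ := by
    intro k
    induction k with
    | zero => intro l; simp only [pow_zero, one_mul, inv_one, mul_one]; rfl
    | succ k ih =>
      intro l
      rw [pow_succ']
      show x * ((f ^ k) l : X) * x⁻¹ = _
      rw [ih, pow_succ']
      group
  have hf : f ^ s ^ 1 = 1 := by
    rw [pow_one]
    funext l
    apply Subtype.ext
    rw [hpow, hx]
    simp only [one_mul, inv_one, mul_one]; rfl
  let _ : Fintype X := Fintype.ofFinite _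
  have h := Equiv.Perm.card_fixedPoints_modEq hf
  rw [Nat.card_eq_fintype_card]
  have e : Fintype.card (Function.fixedPoints f)
      = Nat.card (X ⊓ Subgroup.centralizer {x} : Subgroup G) := by
    rw [← Nat.card_eq_fintype_card]
    refine Nat.card_congr
      { toFun := fun l => ⟨(l.1 : G), Subgroup.mem_inf.2 ⟨l.1.2, ?_⟩⟩
        invFun := fun l => ⟨⟨l.1, (Subgroup.mem_inf.1 l.2).1⟩, ?_⟩
        left_inv := fun l => rfl
        right_inv := fun l => rfl }
    · rw [Subgroup.mem_centralizer_singleton_iff]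
      have h1 : f l.1 = l.1 := l.2
      have h2 : x * (l.1 : G) * x⁻¹ = l.1 := congrArg Subtype.val h1
      rw [mul_inv_eq_iff_eq_mul] at h2
      exact h2.symm
    · have h1 := Subgroup.mem_centralizer_singleton_iff.1 (Subgroup.mem_inf.1 l.2).2
      show f _ = _
      apply Subtype.ext
      show x * (l : G) * x⁻¹ = l
      rw [← h1, mul_inv_cancel_right]
  rw [← e]
  exact h

theorem card_dvd_of_free {G : Type*} [Group G] [Finite G] (S X Y : Subgroup G) (hYX : Y ≤ X)
    (hSX : ∀ y ∈ S, ∀ l ∈ X, y * l * y⁻¹ ∈ X) (hSY : ∀ y ∈ S, ∀ l ∈ Y, y * l * y⁻¹ ∈ Y)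
    (hfree : ∀ y ∈ S, y ≠ 1 → ∀ l ∈ X, y * l = l * y → l ∈ Y) :
    Nat.card S ∣ Nat.card X - Nat.card Y := by
  classical
  let Z := {l : G // l ∈ X ∧ l ∉ Y}
  have hZ : ∀ y ∈ S, ∀ l : G, l ∈ X ∧ l ∉ Y → y * l * y⁻¹ ∈ X ∧ y * l * y⁻¹ ∉ Y := by
    intro y hy l hl
    refine ⟨hSX y hy l hl.1, fun h => hl.2 ?_⟩
    have := hSY y⁻¹ (S.inv_mem hy) _ h
    simpa [mul_assoc] using this
  let act : MulAction S Z :=
    { smul := fun y l => ⟨y * l * (y : G)⁻¹, hZ y y.2 l l.2⟩
      one_smul := fun l => Subtype.ext (by show ((1 : S) : G) * l * ((1 : S) : G)⁻¹ = l; simp)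
      mul_smul := fun a b l => Subtype.ext (by
        show ((a * b : S) : G) * l * ((a * b : S) : G)⁻¹ = a * (b * l * (b : G)⁻¹) * (a : G)⁻¹
        simp [mul_assoc]) }
  have hsmul : ∀ (y : S) (l : Z), ((y • l : Z) : G) = y * l * (y : G)⁻¹ := fun y l => rfl
  let _ : Fintype S := Fintype.ofFinite _
  let _ : Fintype Z := Fintype.ofFinite _
  let _ : Fintype (Quotient (MulAction.orbitRel S Z)) := Fintype.ofFinite _
  have hB := MulAction.sum_card_fixedBy_eq_card_orbits_mul_card_group S Z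
  have h1 : ∀ y : S, y ≠ 1 → Fintype.card (MulAction.fixedBy Z y) = 0 := by
    intro y hy
    rw [Fintype.card_eq_zero_iff]
    refine ⟨fun l => ?_⟩
    have h2 : y • l.1 = l.1 := l.2
    have h3 : (y : G) * l.1 * (y : G)⁻¹ = l.1 := by rw [← hsmul, h2]
    rw [mul_inv_eq_iff_eq_mul] at h3
    exact l.1.2.2 (hfree y y.2 (fun h => hy (Subtype.ext h)) _ l.1.2.1 h3)
  have h2 : Fintype.card (MulAction.fixedBy Z (1 : S)) = Fintype.card Z := by
    apply Fintype.card_of_subtype
    intro l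
    simp
  rw [Finset.sum_eq_single (1 : S) (fun y _ hy => h1 y hy) (fun h => absurd (Finset.mem_univ _) h),
    h2] at hB
  have hcard : Nat.card X - Nat.card Y = Fintype.card Z := by
    have e1 : Nat.card X = Nat.card {l : X // (l : G) ∈ Y} + Nat.card {l : X // ¬ (l : G) ∈ Y} := by
      rw [← Nat.card_sum]
      exact Nat.card_congr (Equiv.sumCompl (fun l : X => (l : G) ∈ Y)).symm
    have e2 : Nat.card {l : X // (l : G) ∈ Y} = Nat.card Y :=
      Nat.card_congr
        { toFun := fun l => ⟨l.1.1, l.2⟩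
          invFun := fun l => ⟨⟨l.1, hYX l.2⟩, l.2⟩
          left_inv := fun l => rfl
          right_inv := fun l => rfl }
    have e3 : Nat.card {l : X // ¬ (l : G) ∈ Y} = Fintype.card Z := by
      rw [← Nat.card_eq_fintype_card]
      exact Nat.card_congr
        { toFun := fun l => ⟨l.1.1, l.1.2, l.2⟩
          invFun := fun l => ⟨⟨l.1, l.2.1⟩, l.2.2⟩
          left_inv := fun l => rfl
          right_inv := fun l => rfl }
    rw [e1, e2, e3]
    omega
  rw [hcard, hB, Nat.card_eq_fintype_card]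
  exact Dvd.intro_left _ rfl

end Cfsg.Agent.Lib.Helper12.HupCT
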