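import Mathlib
import Cfsg.Agent.Lib.Helper53.Hup.Defs
import Cfsg.Agent.Lib.Helper1.MinimalNormal

/-!
# Piece GT4 of Huppert's theorem (S3360): existence of symplectic-type normal subgroups
-/

set_option autoImplicit false

namespace Cfsg.Agent.Lib.Helper12.HupGT4

open Cfsg.Agent.Lib.Helper53.Hup

variable {G : Type*} [Group G] [Finite G]

/-- general step: above a normal subgroup `A`, inside a bigger normal subgroup `D` of a solvable
group there is a normal `N` with `N/A` a nontrivial elementary abelian group. -/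
theorem step (hsol : Group.IsSolvable G) (A : Subgroup G) [A.Normal] (D : Subgroup G)
    (hD : D.Normal) (hAD : A ≤ D) (hne : D ≠ A) :
    ∃ N : Subgroup G, N.Normal ∧ A ≤ N ∧ N ≤ D ∧ N ≠ A ∧
      (∀ l ∈ N, ∀ l' ∈ N, l * l' * l⁻¹ * l'⁻¹ ∈ A) ∧
      ∃ r d : ℕ, r.Prime ∧ 0 < d ∧ A.relIndex N = r ^ d := by
  classical
  set π := QuotientGroup.mk' A with hπ
  have hπs : Function.Surjective π := QuotientGroup.mk'_surjective A
  have hker : π.ker = A := QuotientGroup.ker_mk' A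
  have hDn : (D.map π).Normal := hD.map π hπs
  have hDne : D.map π ≠ ⊥ := by
    intro h
    rw [Subgroup.map_eq_bot_iff, hker] at h
    exact hne (le_antisymm h hAD)
  obtain ⟨Nb, hNn, hNne, hNle, hNmin⟩ :=
    Cfsg.Agent.Lib.Helper1.exists_minimal_normal_le hDn hDne
  have hsolq : Group.IsSolvable (G ⧸ A) := Group.isSolvable_of_surjective hπs
  have hsolN : Group.IsSolvable Nb := inferInstance
  obtain ⟨hcomm, r, hr, hexp⟩ :=
    Cfsg.Agent.Lib.Helper1.minimal_normal_elementary_abelian Nb hsolN hNne hNmin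
  have hAN : A ≤ Nb.comap π := by
    intro a ha
    rw [Subgroup.mem_comap]
    have : π a = 1 := by rw [← MonoidHom.mem_ker, hker]; exact ha
    rw [this]; exact Nb.one_mem
  refine ⟨Nb.comap π, hNn.comap π, hAN, ?_, ?_, ?_, ?_⟩
  · intro x hx
    rw [Subgroup.mem_comap] at hx
    obtain ⟨d, hd, hdx⟩ := Subgroup.mem_map.1 (hNle hx)
    have h1 : d⁻¹ * x ∈ A := by
      rw [← hker, MonoidHom.mem_ker, map_mul, map_inv, hdx, inv_mul_cancel]
    have : x = d * (d⁻¹ * x) := by group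
    rw [this]
    exact D.mul_mem hd (hAD h1)
  · intro h
    apply hNne
    rw [eq_bot_iff]
    intro y hy
    obtain ⟨x, rfl⟩ := hπs y
    have hx : x ∈ Nb.comap π := hy
    rw [h, ← hker, MonoidHom.mem_ker] at hx
    rw [Subgroup.mem_bot]; exact hx
  · intro l hl l' hl'
    rw [← hker, MonoidHom.mem_ker]
    have h1 : π l * π l' = π l' * π l := by
      have := hcomm.is_comm.comm ⟨π l, hl⟩ ⟨π l', hl'⟩
      exact congrArg Subtype.val this
    rw [map_mul, map_mul, map_mul, map_inv, map_inv, h1]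
    group
  · have hP : IsPGroup r Nb := Cfsg.Agent.Lib.Helper1.isPGroup_of_forall_pow_eq_one hexp
    have : Fact r.Prime := ⟨hr⟩
    obtain ⟨d, hd⟩ := IsPGroup.iff_card.1 hP
    refine ⟨r, d, hr, ?_, ?_⟩
    · rcases Nat.eq_zero_or_pos d with h0 | h0
      · exfalso
        rw [h0, pow_zero] at hd
        exact hNne (Subgroup.card_eq_one.1 hd)
      · exact h0
    · have h1 : (⊥ : Subgroup (G ⧸ A)).comap π = A := hker
      calc A.relIndex (Nb.comap π)
          = ((⊥ : Subgroup (G ⧸ A)).comap π).relIndex (Nb.comap π) := by rw [h1]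
        _ = (⊥ : Subgroup (G ⧸ A)).relIndex ((Nb.comap π).map π) := Subgroup.relIndex_comap _ _ _
        _ = Nat.card Nb := by
            rw [Subgroup.map_comap_eq_self_of_surjective hπs, Subgroup.relIndex_bot_left]
        _ = r ^ d := hd

omit [Finite G] in
/-- a normal subgroup between `A` and `C_G(A)` with `[N,N] ≤ A` is of symplectic type. -/
theorem sympPair_of (A : Subgroup G) [A.Normal]
    (hAmax : ∀ B : Subgroup G, B.Normal → IsMulCommutative B → A ≤ B → B = A)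
    (N : Subgroup G) (hN : N.Normal) (hAN : A ≤ N) (hNC : N ≤ Subgroup.centralizer (A : Set G))
    (hcomm : ∀ l ∈ N, ∀ l' ∈ N, l * l' * l⁻¹ * l'⁻¹ ∈ A) : SympPair A N := by
  refine ⟨hAN, ?_, hcomm, ?_⟩
  · intro a ha l hl
    exact (Subgroup.mem_centralizer_iff.1 (hNC hl)) a ha
  · intro l hl hl'
    have := hN
    have hZn : (N ⊓ Subgroup.centralizer (N : Set G)).Normal := inferInstance
    have hZc : IsMulCommutative ↥(N ⊓ Subgroup.centralizer (N : Set G)) := by
      refine ⟨⟨fun a b => Subtype.ext ?_⟩⟩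
      exact ((Subgroup.mem_centralizer_iff.1 b.2.2) a a.2.1)
    have hAZ : A ≤ N ⊓ Subgroup.centralizer (N : Set G) := by
      intro a ha
      refine Subgroup.mem_inf.2 ⟨hAN ha, ?_⟩
      rw [Subgroup.mem_centralizer_iff]
      intro h hh
      exact ((Subgroup.mem_centralizer_iff.1 (hNC hh)) a ha).symm
    have hZ := hAmax _ hZn hZc hAZ
    rw [← hZ]
    refine Subgroup.mem_inf.2 ⟨hl, ?_⟩
    rw [Subgroup.mem_centralizer_iff]
    intro h hh
    exact (hl' h hh).symm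

omit [Finite G] in
theorem le_centralizer_self (A : Subgroup G) (hAc : IsMulCommutative A) :
    A ≤ Subgroup.centralizer (A : Set G) := by
  intro a ha
  rw [Subgroup.mem_centralizer_iff]
  intro h hh
  exact congrArg Subtype.val (hAc.is_comm.comm ⟨h, hh⟩ ⟨a, ha⟩)

theorem exists_symp_prime (hsol : Group.IsSolvable G) (A : Subgroup G) [A.Normal]
    (hAc : IsMulCommutative A)
    (hAmax : ∀ B : Subgroup G, B.Normal → IsMulCommutative B → A ≤ B → B = A)
    (hne : Subgroup.centralizer (A : Set G) ≠ A) :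
    ∃ N : Subgroup G, N.Normal ∧ N ≤ Subgroup.centralizer (A : Set G) ∧ SympPair A N ∧
      ∃ r d : ℕ, r.Prime ∧ 0 < d ∧ A.relIndex N = r ^ d := by
  obtain ⟨N, hN, hAN, hNC, -, hcomm, hrd⟩ :=
    step hsol A (Subgroup.centralizer (A : Set G)) inferInstance (le_centralizer_self A hAc) hne
  exact ⟨N, hN, hNC, sympPair_of A hAmax N hN hAN hNC hcomm, hrd⟩

theorem exists_symp_max (hsol : Group.IsSolvable G) (A : Subgroup G) [A.Normal]
    (hAc : IsMulCommutative A)
    (hAmax : ∀ B : Subgroup G, B.Normal → IsMulCommutative B → A ≤ B → B = A) :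
    ∃ L : Subgroup G, L.Normal ∧ L ≤ Subgroup.centralizer (A : Set G) ∧ SympPair A L ∧
      Subgroup.centralizer (A : Set G) ⊓ Subgroup.centralizer (L : Set G) ≤ A := by
  classical
  let S : Set (Subgroup G) := {L | L.Normal ∧ A ≤ L ∧ L ≤ Subgroup.centralizer (A : Set G) ∧
    ∀ l ∈ L, ∀ l' ∈ L, l * l' * l⁻¹ * l'⁻¹ ∈ A}
  have hAS : A ∈ S := by
    refine ⟨inferInstance, le_rfl, le_centralizer_self A hAc, ?_⟩
    intro l hl l' hl'
    exact A.mul_mem (A.mul_mem (A.mul_mem hl hl') (A.inv_mem hl)) (A.inv_mem hl')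
  obtain ⟨L, hL⟩ := (Set.toFinite S).exists_maximal ⟨A, hAS⟩
  obtain ⟨hLn, hAL, hLC, hLcomm⟩ := hL.prop
  have hSP : SympPair A L := sympPair_of A hAmax L hLn hAL hLC hLcomm
  refine ⟨L, hLn, hLC, hSP, ?_⟩
  by_contra hcon
  have := hLn
  set D := Subgroup.centralizer (A : Set G) ⊓ Subgroup.centralizer (L : Set G) with hDdef
  have hDn : D.Normal := inferInstance
  have hAD : A ≤ D := by
    intro a ha
    refine Subgroup.mem_inf.2 ⟨le_centralizer_self A hAc ha, ?_⟩
    rw [Subgroup.mem_centralizer_iff]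
    intro h hh
    exact ((Subgroup.mem_centralizer_iff.1 (hLC hh)) a ha).symm
  have hDne : D ≠ A := fun h => hcon h.le
  obtain ⟨N, hN, hAN, hND, hNA, hNcomm, -⟩ := step hsol A D hDn hAD hDne
  have := hN
  have hLN : L ⊔ N ∈ S := by
    refine ⟨inferInstance, hAL.trans le_sup_left, sup_le hLC (hND.trans inf_le_left), ?_⟩
    intro x hx y hy
    obtain ⟨l, hl, n, hn, rfl⟩ := Subgroup.mem_sup_of_normal_right.1 hx
    obtain ⟨l', hl', n', hn', rfl⟩ := Subgroup.mem_sup_of_normal_right.1 hy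
    have c1 : ∀ m ∈ N, ∀ k ∈ L, k * m = m * k := fun m hm k hk =>
      (Subgroup.mem_centralizer_iff.1 (hND hm).2) k hk
    have e : l * n * (l' * n') * (l * n)⁻¹ * (l' * n')⁻¹
        = (l * l' * l⁻¹ * l'⁻¹) * (n * n' * n⁻¹ * n'⁻¹) := by
      have h1 : n * l' = l' * n := (c1 n hn l' hl').symm
      have h2 : n' * l⁻¹ = l⁻¹ * n' := (c1 n' hn' l⁻¹ (L.inv_mem hl)).symm
      have h3 : n * l⁻¹ = l⁻¹ * n := (c1 n hn l⁻¹ (L.inv_mem hl)).symm
      have h4 : n⁻¹ * l⁻¹ = l⁻¹ * n⁻¹ := (c1 n⁻¹ (N.inv_mem hn) l⁻¹ (L.inv_mem hl)).symm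
      have h5 : ∀ m ∈ N, m * l'⁻¹ = l'⁻¹ * m := fun m hm => (c1 m hm l'⁻¹ (L.inv_mem hl')).symm
      calc l * n * (l' * n') * (l * n)⁻¹ * (l' * n')⁻¹
          = l * (n * l') * n' * (n⁻¹ * l⁻¹) * (n'⁻¹ * l'⁻¹) := by group
        _ = l * (l' * n) * n' * (l⁻¹ * n⁻¹) * (l'⁻¹ * n'⁻¹) := by
            rw [h1, h4, h5 n'⁻¹ (N.inv_mem hn')]
        _ = l * l' * n * (n' * l⁻¹) * n⁻¹ * l'⁻¹ * n'⁻¹ := by group
        _ = l * l' * (n * l⁻¹) * n' * n⁻¹ * l'⁻¹ * n'⁻¹ := by rw [h2]; group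
        _ = l * l' * l⁻¹ * ((n * n' * n⁻¹) * l'⁻¹) * n'⁻¹ := by rw [h3]; group
        _ = (l * l' * l⁻¹ * l'⁻¹) * (n * n' * n⁻¹ * n'⁻¹) := by
            rw [h5 _ (N.mul_mem (N.mul_mem hn hn') (N.inv_mem hn))]; group
    rw [e]
    exact A.mul_mem (hLcomm l hl l' hl') (hNcomm n hn n' hn')
  have hle : L ⊔ N ≤ L := hL.le_of_ge hLN le_sup_left
  have hNL : N ≤ L := le_sup_right.trans hle
  apply hNA
  refine le_antisymm ?_ hAN
  intro n hn
  refine hSP.center n (hNL hn) ?_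
  intro l' hl'
  exact ((Subgroup.mem_centralizer_iff.1 (hND hn).2) l' hl').symm

end Cfsg.Agent.Lib.Helper12.HupGT4
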