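import Mathlib
import Cfsg.Agent.Lib.Helper53.Hup.Defs

/-!
# Piece LA2 of Huppert's theorem (S3360): linear independence of coset representatives
-/

set_option autoImplicit false

namespace Cfsg.Agent.Lib.Helper12.HupLA2

open Cfsg.Agent.Lib.Helper53.Hup

/-- Dedekind–Artin independence for commuting ring-valued "characters". -/
theorem artin {E : Type*} [Ring E] {Y : Type*} [Monoid Y] {ι : Type*} [DecidableEq ι]
    (χ : ι → Y → E) (hmul : ∀ t y y', χ t (y * y') = χ t y * χ t y') (hone : ∀ t, χ t 1 = 1)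
    (hcomm : ∀ t t' y y', χ t y * χ t' y' = χ t' y' * χ t y)
    (hsep : ∀ t t', t ≠ t' → ∃ y, ∀ m : E, (χ t y - χ t' y) * m = 0 → m = 0)
    (s : Finset ι) : ∀ (m : ι → E), (∀ y, ∑ t ∈ s, χ t y * m t = 0) → ∀ t ∈ s, m t = 0 := by
  induction s using Finset.induction_on with
  | empty => intro m _ t ht; simp at ht
  | insert a s' ha ih =>
    intro m H
    have key : ∀ z, ∀ t ∈ s', (χ t z - χ a z) * m t = 0 := by
      intro z
      apply ih (fun t => (χ t z - χ a z) * m t)
      intro y
      have h1 := H (z * y)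
      have h2 := H y
      rw [Finset.sum_insert ha] at h1 h2
      have h3 : χ a z * (χ a y * m a + ∑ t ∈ s', χ t y * m t) = 0 := by rw [h2, mul_zero]
      rw [mul_add, Finset.mul_sum] at h3
      rw [hmul] at h1
      have h4 : ∑ t ∈ s', χ t (z * y) * m t - ∑ t ∈ s', χ a z * (χ t y * m t) = 0 := by
        have e1 : ∑ t ∈ s', χ t (z * y) * m t = - (χ a z * χ a y * m a) := by
          rw [eq_neg_iff_add_eq_zero, add_comm]; exact h1
        have e2 : ∑ t ∈ s', χ a z * (χ t y * m t) = - (χ a z * (χ a y * m a)) := by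
          rw [eq_neg_iff_add_eq_zero, add_comm]; exact h3
        rw [e1, e2, mul_assoc, sub_self]
      rw [← Finset.sum_sub_distrib] at h4
      rw [← h4]
      apply Finset.sum_congr rfl
      intro t _
      rw [hmul, ← mul_assoc, mul_sub, hcomm t t y z, hcomm t a y z, sub_mul, mul_assoc (χ a z)]
    have hs' : ∀ t ∈ s', m t = 0 := by
      intro t ht
      have hta : t ≠ a := fun h => ha (h ▸ ht)
      obtain ⟨z, hz⟩ := hsep t a hta
      exact hz _ (key z t ht)
    intro t ht
    rcases Finset.mem_insert.1 ht with rfl | ht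
    · have h1 := H 1
      rw [Finset.sum_insert ha, hone, one_mul] at h1
      rw [Finset.sum_eq_zero (fun t ht => by rw [hs' t ht, mul_zero]), add_zero] at h1
      exact h1
    · exact hs' t ht

theorem indep {p : ℕ} [Fact p.Prime] {V : Type*} [AddCommGroup V] [Module (ZMod p) V] [Finite V]
    (K : Subalgebra (ZMod p) (Module.End (ZMod p) V))
    (hKc : ∀ f ∈ K, ∀ h ∈ K, f * h = h * f) (hKinj : ∀ f ∈ K, f ≠ 0 → Function.Injective f)
    {G : Type*} [Group G] [Finite G] (ρ : G →* (V ≃ₗ[ZMod p] V)) (hρ : Function.Injective ρ)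
    (A N : Subgroup G) (h : SympPair A N)
    (hAK : ∀ a ∈ A, (ρ a).toLinearMap ∈ K)
    (hNK : ∀ l ∈ N, ∀ f ∈ K, (ρ l).toLinearMap * f = f * (ρ l).toLinearMap) :
    Nat.card K ^ A.relIndex N ≤ p ^ (Module.finrank (ZMod p) V) ^ 2 := by
  classical
  let R : G →* Module.End (ZMod p) V :=
    (LinearEquiv.automorphismGroup.toLinearMapMonoidHom).comp ρ
  have hR : ∀ g, R g = (ρ g).toLinearMap := fun g => rfl
  have hRinj : Function.Injective R := by
    intro g g' hgg
    apply hρ
    apply LinearEquiv.toLinearMap_injective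
    rw [← hR, ← hR, hgg]
  let ι := ↥N ⧸ A.subgroupOf N
  letI : Fintype ι := Fintype.ofFinite ι
  let rep : ι → G := fun t => ((Quotient.out t : ↥N) : G)
  have hrepN : ∀ t, rep t ∈ N := fun t => (Quotient.out t : ↥N).2
  have hrep : ∀ t t', (rep t')⁻¹ * rep t ∈ A → t = t' := by
    intro t t' hh
    have h1 : (Quotient.out t' : ↥N)⁻¹ * (Quotient.out t : ↥N) ∈ A.subgroupOf N := by
      rw [Subgroup.mem_subgroupOf]; exact hh
    have h2 : ((Quotient.out t' : ↥N) : ι) = ((Quotient.out t : ↥N) : ι) :=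
      QuotientGroup.eq.2 h1
    have e1 : ((Quotient.out t' : ↥N) : ι) = t' := Quotient.out_eq' t'
    have e2 : ((Quotient.out t : ↥N) : ι) = t := Quotient.out_eq' t
    rw [e1, e2] at h2
    exact h2.symm
  -- commutator characters
  let cm : G → G → G := fun y t => y * t * y⁻¹ * t⁻¹
  have hcmA : ∀ y ∈ N, ∀ t ∈ N, cm y t ∈ A := fun y hy t ht => h.comm y hy t ht
  let χ : ι → ↥N → Module.End (ZMod p) V := fun t y => R (cm y (rep t))
  have hχK : ∀ t y, χ t y ∈ K := fun t y => by
    show R _ ∈ K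
    rw [hR]; exact hAK _ (hcmA y y.2 _ (hrepN t))
  have hmul : ∀ t y y', χ t (y * y') = χ t y * χ t y' := by
    intro t y y'
    show R _ = R _ * R _
    rw [← map_mul]
    congr 1
    have hc := h.central _ (hcmA y' y'.2 _ (hrepN t)) y y.2
    show (y : G) * y' * rep t * ((y : G) * y')⁻¹ * (rep t)⁻¹
      = ((y : G) * rep t * (y : G)⁻¹ * (rep t)⁻¹) * ((y' : G) * rep t * (y' : G)⁻¹ * (rep t)⁻¹)
    have hc2 := h.central _ (hcmA y' y'.2 _ (hrepN t)) _
      (N.mul_mem (N.mul_mem (hrepN t) (N.inv_mem y.2)) (N.inv_mem (hrepN t)))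
    calc (y : G) * y' * rep t * ((y : G) * y')⁻¹ * (rep t)⁻¹
        = (y : G) * (cm y' (rep t) * (rep t * (y : G)⁻¹ * (rep t)⁻¹)) := by
          simp only [cm]; group
      _ = (y : G) * ((rep t * (y : G)⁻¹ * (rep t)⁻¹) * cm y' (rep t)) := by rw [hc2]
      _ = _ := by simp only [cm]; group
  have hone : ∀ t, χ t 1 = 1 := by
    intro t
    show R _ = 1
    have : cm ((1 : ↥N) : G) (rep t) = 1 := by simp [cm]
    rw [this, map_one]
  have hcomm : ∀ t t' y y', χ t y * χ t' y' = χ t' y' * χ t y := fun t t' y y' =>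
    hKc _ (hχK t y) _ (hχK t' y')
  have hsep : ∀ t t', t ≠ t' → ∃ y, ∀ m : Module.End (ZMod p) V,
      (χ t y - χ t' y) * m = 0 → m = 0 := by
    intro t t' htt
    have hex : ∃ y, χ t y ≠ χ t' y := by
      by_contra hcon
      push Not at hcon
      apply htt
      apply hrep
      apply h.center _ (N.mul_mem (N.inv_mem (hrepN t')) (hrepN t))
      intro l hl
      have h1 := hRinj (hcon ⟨l⁻¹, N.inv_mem hl⟩)
      have h2 : l⁻¹ * rep t * l⁻¹⁻¹ * (rep t)⁻¹ = l⁻¹ * rep t' * l⁻¹⁻¹ * (rep t')⁻¹ := h1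
      rw [inv_inv] at h2
      have h3 : rep t * l * (rep t)⁻¹ = rep t' * l * (rep t')⁻¹ := by
        have := congrArg (fun x => l * x) h2
        simpa [mul_assoc] using this
      calc (rep t')⁻¹ * rep t * l = (rep t')⁻¹ * (rep t * l * (rep t)⁻¹) * rep t := by group
        _ = (rep t')⁻¹ * (rep t' * l * (rep t')⁻¹) * rep t := by rw [h3]
        _ = l * ((rep t')⁻¹ * rep t) := by group
    obtain ⟨y, hy⟩ := hex
    refine ⟨y, fun m hm => ?_⟩
    have hinj := hKinj _ (K.sub_mem (hχK t y) (hχK t' y)) (sub_ne_zero.2 hy)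
    ext v
    apply hinj
    have := LinearMap.congr_fun hm v
    simpa using this
  -- the map
  let Φ : (ι → K) → Module.End (ZMod p) V := fun c => ∑ t, (c t : Module.End (ZMod p) V) * R (rep t)
  have hΦ : Function.Injective Φ := by
    intro c c' hcc
    let e : ι → Module.End (ZMod p) V := fun t => (c t : Module.End (ZMod p) V) - c' t
    have heK : ∀ t, e t ∈ K := fun t => K.sub_mem (c t).2 (c' t).2
    have hsum : ∑ t, e t * R (rep t) = 0 := by
      have : ∑ t, e t * R (rep t) = Φ c - Φ c' := by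
        simp only [Φ, e, sub_mul, Finset.sum_sub_distrib]
      rw [this, hcc, sub_self]
    have hall : ∀ y : ↥N, ∑ t ∈ Finset.univ, χ t y * (e t * R (rep t)) = 0 := by
      intro y
      have h1 : R y * (∑ t, e t * R (rep t)) * R (y : G)⁻¹ = 0 := by rw [hsum, mul_zero, zero_mul]
      rw [Finset.mul_sum, Finset.sum_mul] at h1
      rw [← h1]
      apply Finset.sum_congr rfl
      intro t _
      have h2 : R y * e t = e t * R y := by rw [hR]; exact hNK y y.2 _ (heK t)
      have h3 : χ t y * e t = e t * χ t y := hKc _ (hχK t y) _ (heK t)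
      calc χ t y * (e t * R (rep t)) = e t * (χ t y * R (rep t)) := by
            rw [← mul_assoc, h3, mul_assoc]
        _ = e t * (R y * R (rep t) * R (y : G)⁻¹) := by
            congr 1
            show R _ * R _ = _
            rw [← map_mul, ← map_mul, ← map_mul]
            congr 1
            simp only [cm]; group
        _ = R y * (e t * R (rep t)) * R (y : G)⁻¹ := by
            rw [← mul_assoc (R y), h2]; simp only [mul_assoc]
    have hzero := artin χ hmul hone hcomm hsep Finset.univ (fun t => e t * R (rep t)) hall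
    funext t
    have h1 := hzero t (Finset.mem_univ t)
    have h2 : e t = 0 := by
      have : e t = e t * R (rep t) * R (rep t)⁻¹ := by
        rw [mul_assoc, ← map_mul, mul_inv_cancel, map_one, mul_one]
      rw [this, h1, zero_mul]
    exact Subtype.ext (sub_eq_zero.1 h2)
  haveI : Finite (Module.End (ZMod p) V) :=
    Finite.of_injective (fun f : Module.End (ZMod p) V => (f : V → V)) DFunLike.coe_injective
  have hle := Nat.card_le_card_of_injective Φ hΦ
  rw [Nat.card_fun] at hle
  have hι : Nat.card ι = A.relIndex N := rfl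
  rw [hι] at hle
  refine hle.trans (le_of_eq ?_)
  letI : Fintype (Module.End (ZMod p) V) := Fintype.ofFinite _
  rw [Nat.card_eq_fintype_card, Module.card_eq_pow_finrank (K := ZMod p), ZMod.card,
    Module.finrank_linearMap, sq]

end Cfsg.Agent.Lib.Helper12.HupLA2
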