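import Mathlib
import Cfsg.Agent.Lib.Helper53.Hup.Defs

/-!
# Piece LA3 of Huppert's theorem (S3360): a ppd element is irreducible and commutes with small
invariant subalgebras
-/

set_option autoImplicit false

namespace Cfsg.Agent.Lib.Helper12.HupLA3

open Cfsg.Agent.Lib.Helper53.Hup

/-- the common lemma, relative to an invariant submodule. -/
theorem fix_lemma {p n s : ℕ} [Fact p.Prime] (hs : PPD p n s)
    {E : Type*} [AddCommGroup E] [Module (ZMod p) E] (W : Submodule (ZMod p) E) [Finite W]
    (c : E →ₗ[ZMod p] E) (hc : ∀ w ∈ W, c w ∈ W) (hcs : ∀ w ∈ W, (c ^ s) w = w)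
    (ha : Module.finrank (ZMod p) W ≤ n)
    (hfix : Module.finrank (ZMod p) W < n ∨ ∃ u ∈ W, u ≠ 0 ∧ c u = u) :
    ∀ w ∈ W, c w = w := by
  classical
  obtain ⟨hsp, hsd, hsmin⟩ := hs
  haveI : Fact s.Prime := ⟨hsp⟩
  have hp : p.Prime := Fact.out
  let F : Submodule (ZMod p) E := W ⊓ LinearMap.ker (c - 1)
  have hFmem : ∀ w, w ∈ F ↔ w ∈ W ∧ c w = w := by
    intro w
    simp only [F, Submodule.mem_inf, LinearMap.mem_ker, LinearMap.sub_apply, Module.End.one_apply,
      sub_eq_zero]
  have hFW : F ≤ W := inf_le_left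
  haveI : Finite F := Finite.of_injective (Submodule.inclusion hFW) (Submodule.inclusion_injective hFW)
  let f : Function.End W := fun w => ⟨c w, hc w w.2⟩
  have hpow : ∀ (k : ℕ) (w : W), (((f ^ k) w : W) : E) = (c ^ k) w := by
    intro k
    induction k with
    | zero => intro w; rfl
    | succ k ih =>
      intro w
      rw [pow_succ', pow_succ']
      show c ((f ^ k) w : W) = c ((c ^ k) w)
      rw [ih]
  have hf : f ^ s ^ 1 = 1 := by
    rw [pow_one]
    funext w
    apply Subtype.ext
    rw [hpow, hcs w w.2]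
    rfl
  let _ : Fintype W := Fintype.ofFinite _
  let _ : Fintype F := Fintype.ofFinite _
  have h := Equiv.Perm.card_fixedPoints_modEq hf
  have e : Fintype.card (Function.fixedPoints f) = Fintype.card F := by
    refine Fintype.card_congr
      { toFun := fun l => ⟨(l.1 : E), (hFmem _).2 ⟨l.1.2, ?_⟩⟩
        invFun := fun l => ⟨⟨l.1, ((hFmem _).1 l.2).1⟩, ?_⟩
        left_inv := fun l => rfl
        right_inv := fun l => rfl }
    · have h1 : f l.1 = l.1 := l.2
      exact congrArg Subtype.val h1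
    · show f _ = _
      exact Subtype.ext ((hFmem _).1 l.2).2
  rw [e, Module.card_eq_pow_finrank (K := ZMod p) (V := W),
    Module.card_eq_pow_finrank (K := ZMod p) (V := F), ZMod.card] at h
  set a := Module.finrank (ZMod p) W with ha'
  set b := Module.finrank (ZMod p) F with hb'
  haveI : Module.Finite (ZMod p) W := Module.Finite.of_finite
  have hba : b ≤ a := Submodule.finrank_mono hFW
  by_cases hab : a = b
  · have hFeq : F = W := Submodule.eq_of_le_of_finrank_eq hFW hab.symm
    intro w hw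
    rw [← hFeq] at hw
    exact ((hFmem w).1 hw).2
  · exfalso
    have hlt : b < a := lt_of_le_of_ne hba (Ne.symm hab)
    have hn : 0 < n := by omega
    have hsp' : ¬ s ∣ p := by
      intro hd
      have h1 : s ∣ p ^ n := dvd_pow hd hn.ne'
      have h2 : 1 ≤ p ^ n := Nat.one_le_pow _ _ hp.pos
      have h3 : s ∣ p ^ n - (p ^ n - 1) := Nat.dvd_sub h1 hsd
      have h4 : p ^ n - (p ^ n - 1) = 1 := by omega
      rw [h4] at h3
      exact hsp.one_lt.ne' (Nat.dvd_one.1 h3)
    have hcop : Nat.Coprime s (p ^ b) := Nat.Coprime.pow_right _ ((Nat.Prime.coprime_iff_not_dvd hsp).2 hsp')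
    have h5 : s ∣ p ^ a - p ^ b := (Nat.modEq_iff_dvd' (Nat.pow_le_pow_right hp.pos hba)).1 h.symm
    have h6 : p ^ a - p ^ b = p ^ b * (p ^ (a - b) - 1) := by
      rw [Nat.mul_sub, ← pow_add, mul_one]
      congr 2
      omega
    rw [h6] at h5
    have h7 : s ∣ p ^ (a - b) - 1 := hcop.dvd_of_dvd_mul_left h5
    have h8 : ¬ (a - b < n) := fun hh => hsmin (a - b) (by omega) hh h7
    rcases hfix with h9 | ⟨u, huW, hu0, hcu⟩
    · omega
    · have hb0 : b ≠ 0 := by
        intro hb0
        have : F = ⊥ := Submodule.finrank_eq_zero.1 hb0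
        have huF : u ∈ F := (hFmem u).2 ⟨huW, hcu⟩
        rw [this, Submodule.mem_bot] at huF
        exact hu0 huF
      omega

theorem ppd_irr {p : ℕ} [Fact p.Prime] {V : Type*} [AddCommGroup V] [Module (ZMod p) V] [Finite V]
    {s : ℕ} (hs : PPD p (Module.finrank (ZMod p) V) s) (x : V ≃ₗ[ZMod p] V) (hx : orderOf x = s)
    (W : Submodule (ZMod p) V) (hW : ∀ v ∈ W, x v ∈ W) : W = ⊥ ∨ W = ⊤ := by
  classical
  by_contra hcon
  push Not at hcon
  obtain ⟨hW0, hW1⟩ := hcon
  haveI : Module.Finite (ZMod p) V := Module.Finite.of_finite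
  have hxs : x ^ s = 1 := by rw [← hx]; exact pow_orderOf_eq_one x
  have hpow : ∀ (k : ℕ) (v : V), (x.toLinearMap ^ k) v = (x ^ k) v := by
    intro k
    induction k with
    | zero => intro v; rfl
    | succ k ih =>
      intro v
      rw [pow_succ', pow_succ']
      show x ((x.toLinearMap ^ k) v) = x ((x ^ k) v)
      rw [ih]
  have hcs : ∀ v, (x.toLinearMap ^ s) v = v := by
    intro v; rw [hpow, hxs]; rfl
  have hlt : Module.finrank (ZMod p) W < Module.finrank (ZMod p) V := Submodule.finrank_lt hW1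
  have h1 := fix_lemma hs W x.toLinearMap hW (fun w _ => hcs w) hlt.le (Or.inl hlt)
  obtain ⟨u, huW, hu0⟩ := (Submodule.ne_bot_iff W).1 hW0
  have h2 := fix_lemma hs (⊤ : Submodule (ZMod p) V) x.toLinearMap (fun _ _ => Submodule.mem_top)
    (fun w _ => hcs w) (by rw [finrank_top]) (Or.inr ⟨u, Submodule.mem_top, hu0, h1 u huW⟩)
  have h3 : x = 1 := by
    ext v
    exact h2 v Submodule.mem_top
  rw [h3, orderOf_one] at hx
  exact hs.1.one_lt.ne hx

theorem ppd_commute {p : ℕ} [Fact p.Prime] {V : Type*} [AddCommGroup V] [Module (ZMod p) V]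
    [Finite V] {s : ℕ}
    (hs : PPD p (Module.finrank (ZMod p) V) s) (x : V ≃ₗ[ZMod p] V) (hx : orderOf x = s)
    (K : Subalgebra (ZMod p) (Module.End (ZMod p) V))
    (hk : Module.finrank (ZMod p) K < Module.finrank (ZMod p) V)
    (hconj : ∀ f ∈ K, x.toLinearMap * f * x.symm.toLinearMap ∈ K) :
    ∀ f ∈ K, x.toLinearMap * f = f * x.toLinearMap := by
  classical
  haveI : Finite (Module.End (ZMod p) V) :=
    Finite.of_injective (fun f : Module.End (ZMod p) V => (f : V → V)) DFunLike.coe_injective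
  have hxs : x ^ s = 1 := by rw [← hx]; exact pow_orderOf_eq_one x
  let X : Module.End (ZMod p) V := x.toLinearMap
  let X' : Module.End (ZMod p) V := x.symm.toLinearMap
  have hXX' : X * X' = 1 := by ext v; simp [X, X']
  have hX'X : X' * X = 1 := by ext v; simp [X, X']
  let c : Module.End (ZMod p) V →ₗ[ZMod p] Module.End (ZMod p) V :=
    (LinearMap.mulLeft (ZMod p) X).comp (LinearMap.mulRight (ZMod p) X')
  have hc : ∀ f, c f = X * f * X' := fun f => by simp [c, mul_assoc]
  have hpow : ∀ (k : ℕ) f, (c ^ k) f = X ^ k * f * X' ^ k := by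
    intro k
    induction k with
    | zero => intro f; simp
    | succ k ih =>
      intro f
      rw [pow_succ', Module.End.mul_apply, ih, hc, pow_succ', pow_succ]
      simp only [mul_assoc]
  have hXpow : ∀ (k : ℕ) (v : V), (X ^ k) v = (x ^ k) v := by
    intro k
    induction k with
    | zero => intro v; rfl
    | succ k ih =>
      intro v
      rw [pow_succ', pow_succ']
      show x ((X ^ k) v) = x ((x ^ k) v)
      rw [ih]
  have hXs : X ^ s = 1 := by
    ext v; rw [hXpow, hxs]; rfl
  have hX's : X' ^ s = 1 := by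
    have h1 : X' ^ s = X' ^ s * X ^ s := by rw [hXs, mul_one]
    have hcm : Commute X' X := by show X' * X = X * X'; rw [hXX', hX'X]
    rw [h1, ← hcm.mul_pow, hX'X, one_pow]
  have hcs : ∀ f, (c ^ s) f = f := by
    intro f; rw [hpow, hXs, hX's, one_mul, mul_one]
  have h1 := fix_lemma hs (Subalgebra.toSubmodule K) c
    (fun f hf => by rw [hc]; exact hconj f hf) (fun f _ => hcs f) (le_of_lt hk) (Or.inl hk)
  intro f hf
  have h2 := h1 f hf
  rw [hc] at h2
  calc x.toLinearMap * f = X * f * (X' * X) := by rw [hX'X, mul_one]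
    _ = (X * f * X') * X := by simp only [mul_assoc]
    _ = f * x.toLinearMap := by rw [h2]

end Cfsg.Agent.Lib.Helper12.HupLA3
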