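import Cfsg.Agent.Lib.Helper80.LBP.Defs
import Cfsg.Agent.Lib.Helper5.SLGen
import Cfsg.Agent.Lib.Helper43.PA.FixField

set_option autoImplicit false

/-!
# Piece P10 (`hb_F`) of the S2686 farm: nontrivial normal subgroups of the image of
`SL_n(F₀)` in `PSL_n(F)` have order divisible by `p`.
-/

namespace Cfsg.Agent.Lib.Helper12.LBP

open Matrix Cfsg.Agent.Lib.Helper43.PA Cfsg.Agent.Lib.Helper80.LBP

variable {n : ℕ} {F : Type*} [Field F]

/-- `SL_n(F₀) → PSL_n(F)`. -/
noncomputable def rho (σ : F ≃+* F) :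
    SpecialLinearGroup (Fin n) (fixK σ) →* ProjectiveSpecialLinearGroup (Fin n) F :=
  (QuotientGroup.mk' (Subgroup.center (SpecialLinearGroup (Fin n) F))).comp
    (SpecialLinearGroup.map (fixK σ).subtype)

lemma rho_range (σ : F ≃+* F) : (rho (n := n) σ).range = LL (fieldSL σ) := by
  ext k
  rw [mem_LL]
  constructor
  · rintro ⟨s, rfl⟩
    refine ⟨SpecialLinearGroup.map (fixK σ).subtype s, ?_, rfl⟩
    apply Subtype.ext
    ext i j
    exact mem_fixK.1 (s.1 i j).2
  · rintro ⟨s, hs, rfl⟩
    have hfix : ∀ i j, s.1 i j ∈ fixK σ := fun i j =>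
      mem_fixK.2 (congrFun (congrFun (congrArg Subtype.val hs) i) j)
    let s0 : Matrix (Fin n) (Fin n) (fixK σ) := fun i j => ⟨s.1 i j, hfix i j⟩
    have hmap : s0.map (fixK σ).subtype = s.1 := by
      ext i j; rfl
    have hdet : s0.det = 1 := by
      apply (fixK σ).subtype_injective
      rw [RingHom.map_det, map_one]
      show (s0.map (fixK σ).subtype).det = 1
      rw [hmap]
      exact s.2
    refine ⟨⟨s0, hdet⟩, ?_⟩
    show QuotientGroup.mk _ = _
    congr 1

lemma rho_ker (hn : 1 ≤ n) (σ : F ≃+* F) :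
    (rho (n := n) σ).ker = Subgroup.center (SpecialLinearGroup (Fin n) (fixK σ)) := by
  ext s
  rw [MonoidHom.mem_ker]
  show (QuotientGroup.mk (SpecialLinearGroup.map (fixK σ).subtype s) :
    ProjectiveSpecialLinearGroup (Fin n) F) = 1 ↔ _
  rw [QuotientGroup.eq_one_iff, Matrix.SpecialLinearGroup.mem_center_iff,
    Matrix.SpecialLinearGroup.mem_center_iff]
  constructor
  · rintro ⟨r, hr, h⟩
    have hent : ∀ i j, (scalar (Fin n) r) i j = ((s.1 i j : fixK σ) : F) := fun i j =>
      congrFun (congrFun h i) j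
    have h00 : r = ((s.1 ⟨0, hn⟩ ⟨0, hn⟩ : fixK σ) : F) := by
      rw [← hent]; simp
    refine ⟨s.1 ⟨0, hn⟩ ⟨0, hn⟩, ?_, ?_⟩
    · apply (fixK σ).subtype_injective
      rw [map_pow, map_one]
      show ((s.1 ⟨0, hn⟩ ⟨0, hn⟩ : fixK σ) : F) ^ _ = 1
      rw [← h00, hr]
    · ext i j
      rw [← hent, h00]
      by_cases hij : i = j
      · subst hij; simp
      · simp [hij]
  · rintro ⟨r, hr, h⟩
    refine ⟨(r : F), ?_, ?_⟩
    · have := congrArg (fixK σ).subtype hr
      simpa using this
    · ext i j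
      show _ = ((s.1 i j : fixK σ) : F)
      rw [← h]
      by_cases hij : i = j
      · subst hij; simp
      · simp [hij]

/-- `PSL_n(F₀) → PSL_n(F)`. -/
noncomputable def rhoBar (hn : 1 ≤ n) (σ : F ≃+* F) :
    ProjectiveSpecialLinearGroup (Fin n) (fixK σ) →* ProjectiveSpecialLinearGroup (Fin n) F :=
  QuotientGroup.lift (Subgroup.center (SpecialLinearGroup (Fin n) (fixK σ))) (rho σ)
    (fun s hs => by rw [← rho_ker hn σ] at hs; exact hs)

lemma rhoBar_injective (hn : 1 ≤ n) (σ : F ≃+* F) : Function.Injective (rhoBar hn σ) := by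
  rw [injective_iff_map_eq_one]
  intro k hk
  induction k using QuotientGroup.induction_on with
  | H s =>
    have : rho σ s = 1 := hk
    rw [QuotientGroup.eq_one_iff, ← rho_ker hn σ]
    exact this

lemma rhoBar_range (hn : 1 ≤ n) (σ : F ≃+* F) : (rhoBar hn σ).range = LL (fieldSL σ) := by
  rw [← rho_range]
  ext k
  constructor
  · rintro ⟨x, rfl⟩
    induction x using QuotientGroup.induction_on with
    | H s => exact ⟨s, rfl⟩
  · rintro ⟨s, rfl⟩
    exact ⟨QuotientGroup.mk s, rfl⟩

/-- an element of `LL θ` of order `p`. -/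
lemma dvd_card_LL_of {θ : MulAut (SpecialLinearGroup (Fin n) F)} [Finite F] {p : ℕ} (hp : p.Prime)
    (y : SpecialLinearGroup (Fin n) F) (hy : θ y = y)
    (hyp : y ^ p ∈ Subgroup.center (SpecialLinearGroup (Fin n) F))
    (hyc : y ∉ Subgroup.center (SpecialLinearGroup (Fin n) F)) : p ∣ Nat.card (LL θ) := by
  have := Fact.mk hp
  have hmem : (QuotientGroup.mk y : ProjectiveSpecialLinearGroup (Fin n) F) ∈ LL θ := mk_mem_LL hy
  have hord : orderOf (⟨QuotientGroup.mk y, hmem⟩ : LL θ) = p := by
    apply orderOf_eq_prime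
    · apply Subtype.ext
      show (QuotientGroup.mk y : ProjectiveSpecialLinearGroup (Fin n) F) ^ p = 1
      rw [← QuotientGroup.mk_pow, QuotientGroup.eq_one_iff]
      exact hyp
    · intro h
      apply hyc
      have := congrArg Subtype.val h
      exact (QuotientGroup.eq_one_iff y).1 this
  rw [← hord]
  exact orderOf_dvd_natCard _

/-- (a): `p` divides the order of `L`. -/
lemma dvd_card_LL [Fintype F] (hn : 2 ≤ n) (σ : F ≃+* F) {p : ℕ} (hp : p.Prime)
    (hσ : orderOf σ = p)
    (hpK : p ∣ Nat.card (ProjectiveSpecialLinearGroup (Fin n) F)) :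
    p ∣ Nat.card (LL (n := n) (fieldSL σ)) := by
  classical
  have := Fact.mk hp
  have h1 : p ∣ Nat.card (SpecialLinearGroup (Fin n) F) :=
    hpK.trans (Subgroup.card_quotient_dvd_card _)
  have hβ : (fieldSL (n := n) σ) ^ p = 1 := by
    rw [← map_pow, ← hσ, pow_orderOf_eq_one, map_one]
  have h2 := (dvd_card_fix_iff (fieldSL (n := n) σ) hβ).2 h1
  obtain ⟨⟨x, hxS⟩, hx⟩ := exists_prime_orderOf_dvd_card' p h2
  have hxfix : fieldSL σ x = x := hxS
  have hxo : orderOf x = p := by
    rw [← hx]; exact (Subgroup.orderOf_mk x hxS).symm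
  by_cases hxc : x ∈ Subgroup.center (SpecialLinearGroup (Fin n) F)
  swap
  · refine dvd_card_LL_of hp x hxfix ?_ hxc
    rw [← hxo, pow_orderOf_eq_one]
    exact Subgroup.one_mem _
  obtain ⟨ζ, hζn, hζ⟩ := Matrix.SpecialLinearGroup.mem_center_iff.1 hxc
  rw [Fintype.card_fin] at hζn
  have i0 : Fin n := ⟨0, by omega⟩
  have hx00 : ∀ i, x.1 i i = ζ := fun i => by rw [← hζ]; simp
  have hσζ : σ ζ = ζ := by
    have := congrFun (congrFun (congrArg Subtype.val hxfix) i0) i0
    rw [fieldSL_coe, Matrix.map_apply, hx00] at this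
    exact this
  have hζp : ζ ^ p = 1 := by
    have h3 : x ^ p = 1 := by rw [← hxo, pow_orderOf_eq_one]
    have h4 := congrArg Subtype.val h3
    rw [Matrix.SpecialLinearGroup.coe_pow, ← hζ, ← map_pow] at h4
    have h5 := congrFun (congrFun h4 i0) i0
    simpa using h5
  have hζ1 : ζ ≠ 1 := by
    rintro rfl
    have : x = 1 := by
      apply Subtype.ext
      rw [← hζ]; simp
    rw [this, orderOf_one] at hxo
    exact hp.one_lt.ne hxo
  have hζ0 : ζ ≠ 0 := by
    rintro rfl
    rw [zero_pow hp.ne_zero] at hζp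
    exact zero_ne_one hζp
  rcases Nat.lt_or_ge 2 n with h3 | h3
  · -- `n ≥ 3`
    let j0 : Fin n := ⟨0, by omega⟩
    let j1 : Fin n := ⟨1, by omega⟩
    let j2 : Fin n := ⟨2, by omega⟩
    have h01 : j0 ≠ j1 := by simp [j0, j1, Fin.ext_iff]
    have h02 : j2 ≠ j0 := by simp [j0, j2, Fin.ext_iff]
    have h12 : j2 ≠ j1 := by simp [j1, j2, Fin.ext_iff]
    let d : Fin n → F := fun i => (if i = j0 then ζ else 1) * (if i = j1 then ζ⁻¹ else 1)
    have hdet : (Matrix.diagonal d).det = 1 := by
      rw [Matrix.det_diagonal, Finset.prod_mul_distrib, Finset.prod_ite_eq', Finset.prod_ite_eq']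
      simp [hζ0]
    have hdp : ∀ i, d i ^ p = 1 := by
      intro i
      simp only [d]
      split_ifs <;> simp [mul_pow, hζp]
    have hdσ : ∀ i, σ (d i) = d i := by
      intro i
      simp only [d]
      split_ifs <;> simp [hσζ]
    obtain ⟨y, hy⟩ : ∃ y : Matrix.SpecialLinearGroup (Fin n) F, y.1 = Matrix.diagonal d :=
      ⟨⟨_, hdet⟩, rfl⟩
    refine dvd_card_LL_of hp y ?_ ?_ ?_
    · apply Subtype.ext
      rw [fieldSL_coe, hy, Matrix.diagonal_map (map_zero σ)]
      congr 1
      funext i
      exact hdσ i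
    · have : y ^ p = 1 := by
        apply Subtype.ext
        rw [Matrix.SpecialLinearGroup.coe_pow, hy, Matrix.diagonal_pow,
          Matrix.SpecialLinearGroup.coe_one, ← Matrix.diagonal_one]
        congr 1
        funext i
        exact hdp i
      rw [this]
      exact Subgroup.one_mem _
    · intro hc
      obtain ⟨r, -, hr⟩ := Matrix.SpecialLinearGroup.mem_center_iff.1 hc
      rw [hy] at hr
      have e0 := congrFun (congrFun hr j0) j0
      have e2 := congrFun (congrFun hr j2) j2
      simp [d, h01, h02, h12] at e0 e2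
      exact hζ1 (e0.symm.trans e2)
  · -- `n = 2`
    obtain rfl : n = 2 := le_antisymm h3 hn
    have hp2 : p = 2 := by
      by_contra hne
      have hcop : Nat.Coprime p 2 := (Nat.coprime_primes hp Nat.prime_two).2 hne
      have h4 := pow_gcd_eq_one.2 ⟨hζp, hζn⟩
      rw [hcop.gcd_eq_one, pow_one] at h4
      exact hζ1 h4
    subst hp2
    have hdet : (!![0, 1; -1, 0] : Matrix (Fin 2) (Fin 2) F).det = 1 := by
      simp [Matrix.det_fin_two]
    obtain ⟨y, hy⟩ : ∃ y : Matrix.SpecialLinearGroup (Fin 2) F, y.1 = !![0, 1; -1, 0] :=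
      ⟨⟨_, hdet⟩, rfl⟩
    refine dvd_card_LL_of hp y ?_ ?_ ?_
    · apply Subtype.ext
      rw [fieldSL_coe, hy]
      ext i j
      fin_cases i <;> fin_cases j <;> simp
    · rw [Matrix.SpecialLinearGroup.mem_center_iff]
      refine ⟨-1, by simp, ?_⟩
      rw [Matrix.SpecialLinearGroup.coe_pow, hy, pow_two]
      ext i j
      fin_cases i <;> fin_cases j <;> simp
    · intro hc
      obtain ⟨r, -, hr⟩ := Matrix.SpecialLinearGroup.mem_center_iff.1 hc
      rw [hy] at hr
      have e0 := congrFun (congrFun hr 0) 1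
      simp at e0

open scoped LinearAlgebra.Projectivization in
/-- a nontrivial normal subgroup of `PSL_2(K)` has order divisible by `|K| + 1`. -/
lemma card_add_one_dvd {K : Type*} [Field K] [Finite K]
    (N : Subgroup (ProjectiveSpecialLinearGroup (Fin 2) K)) [N.Normal] (hN : N ≠ ⊥) :
    Nat.card K + 1 ∣ Nat.card N := by
  have hfix : MulAction.fixedPoints N (ℙ K (Fin 2 → K)) ≠ Set.univ := by
    intro h
    apply hN
    refine N.eq_bot_iff_forall.mpr fun x hx => ?_
    apply (inferInstance : FaithfulSMul (ProjectiveSpecialLinearGroup (Fin 2) K)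
      (ℙ K (Fin 2 → K))).eq_of_smul_eq_smul
    intro a
    rw [one_smul]
    exact Set.eq_univ_iff_forall.mp h a ⟨x, hx⟩
  have htr : MulAction.IsPretransitive N (ℙ K (Fin 2 → K)) :=
    MulAction.IsQuasiPreprimitive.isPretransitive_of_normal hfix
  have hcard : Nat.card (ℙ K (Fin 2 → K)) = Nat.card K + 1 :=
    Projectivization.card_of_finrank_two K (Fin 2 → K) (by simp)
  have a0 : ℙ K (Fin 2 → K) := Projectivization.mk K (fun _ => 1) (by
    intro h; exact one_ne_zero (congrFun h 0))
  rw [← hcard, ← MulAction.index_stabilizer_of_transitive N a0]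
  exact Subgroup.index_dvd_card _

open scoped LinearAlgebra.Projectivization in
lemma card_PSL2_dvd {K : Type*} [Field K] [Finite K] :
    Nat.card (ProjectiveSpecialLinearGroup (Fin 2) K) ∣ (Nat.card K + 1).factorial := by
  have hcard : Nat.card (ℙ K (Fin 2 → K)) = Nat.card K + 1 :=
    Projectivization.card_of_finrank_two K (Fin 2 → K) (by simp)
  rw [← hcard, ← Nat.card_perm]
  exact Subgroup.card_dvd_of_injective
    (MulAction.toPermHom (ProjectiveSpecialLinearGroup (Fin 2) K) (ℙ K (Fin 2 → K)))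
    MulAction.toPerm_injective

/-- [P10] -/
theorem hb_F [Fintype F] (hn : 2 ≤ n) (σ : F ≃+* F) {p : ℕ} (hp : p.Prime) (hσ : orderOf σ = p)
    (hpF : (p : F) ≠ 0) (hpK : p ∣ Nat.card (ProjectiveSpecialLinearGroup (Fin n) F))
    (M : Subgroup (ProjectiveSpecialLinearGroup (Fin n) F)) (hM : M ≤ LL (fieldSL σ))
    (hnorm : ∀ l ∈ LL (fieldSL σ), ∀ k ∈ M, l * k * l⁻¹ ∈ M) (hne : M ≠ ⊥) :
    p ∣ Nat.card M := by
  classical
  have hn1 : 1 ≤ n := by omega
  have hL := dvd_card_LL hn σ hp hσ hpK
  set f := rhoBar hn1 σ with hf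
  have hinj : Function.Injective f := rhoBar_injective hn1 σ
  have hrange : f.range = LL (fieldSL σ) := rhoBar_range hn1 σ
  set N := M.comap f with hN
  have hmap : N.map f = M := by
    rw [hN, Subgroup.map_comap_eq, inf_eq_right, hrange]
    exact hM
  have hcard : Nat.card N = Nat.card M := by
    rw [← hmap]; exact (Subgroup.card_map_of_injective hinj).symm
  have hNn : N.Normal := by
    refine ⟨fun k hk g => ?_⟩
    show f (g * k * g⁻¹) ∈ M
    rw [map_mul, map_mul, map_inv]
    exact hnorm _ (hrange ▸ ⟨g, rfl⟩) _ hk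
  have hNne : N ≠ ⊥ := by
    intro h
    apply hne
    rw [← hmap, h, Subgroup.map_bot]
  have htop : N = ⊤ → p ∣ Nat.card M := by
    intro h
    have : M = LL (fieldSL σ) := by
      rw [← hmap, h, ← hrange, MonoidHom.range_eq_map]
    rw [this]
    exact hL
  have hcardL : Nat.card (ProjectiveSpecialLinearGroup (Fin n) (fixK σ)) =
      Nat.card (LL (n := n) (fieldSL σ)) := by
    rw [← hrange]
    exact Nat.card_congr (MonoidHom.ofInjective hinj).toEquiv
  rcases Nat.lt_or_ge 2 n with h3 | h3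
  · have hs : IsSimpleGroup (ProjectiveSpecialLinearGroup (Fin n) (fixK σ)) :=
      Cfsg.Agent.Lib.Helper5.PSL_isSimpleGroup (by rw [Fintype.card_fin]; exact h3)
    rcases hs.eq_bot_or_eq_top_of_normal N hNn with h | h
    · exact absurd h hNne
    · exact htop h
  · obtain rfl : n = 2 := le_antisymm h3 hn
    rcases Nat.lt_or_ge (Nat.card (fixK σ)) 4 with h4 | h4
    swap
    · have hs : IsSimpleGroup (ProjectiveSpecialLinearGroup (Fin 2) (fixK σ)) :=
        Matrix.ProjectiveSpecialLinearGroup.rank_two_simple h4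
      rcases hs.eq_bot_or_eq_top_of_normal N hNn with h | h
      · exact absurd h hNne
      · exact htop h
    · have h5 := card_add_one_dvd N hNne
      have h6 : p ∣ (Nat.card (fixK σ) + 1).factorial := by
        refine dvd_trans ?_ card_PSL2_dvd
        rw [hcardL]
        exact hL
      have h7 : 1 < Nat.card (fixK σ) := Finite.one_lt_card
      have h8 : p ≠ Nat.card (fixK σ) := by
        intro h
        apply hpF
        have h9 : ((Nat.card (fixK σ) : ℕ) : fixK σ) = 0 := by
          rw [Nat.card_eq_fintype_card]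
          exact FiniteField.cast_card_eq_zero _
        have h10 := congrArg (fixK σ).subtype h9
        rw [map_natCast, map_zero] at h10
        rw [h]
        exact h10
      rw [← hcard]
      refine dvd_trans ?_ h5
      have h11 := (hp.dvd_factorial).1 h6
      have h12 := hp.two_le
      generalize Nat.card (fixK σ) = q at *
      interval_cases q
      · obtain rfl : p = 3 := by omega
        norm_num
      · have : p = 2 ∨ p = 4 := by omega
        rcases this with rfl | rfl
        · norm_num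
        · norm_num

end Cfsg.Agent.Lib.Helper12.LBP
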