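import Cfsg.Agent.Lib.Helper12.LBQ2c
import Cfsg.Agent.Lib.Helper80.LBP.Gen
import Cfsg.Agent.Lib.Helper43.PU.FieldCentU
import Cfsg.Agent.S0282

set_option autoImplicit false
set_option linter.unusedSectionVars false

/-!
# Piece Q2 (`hb_UF`) of the S2687 farm
-/

namespace Cfsg.Agent.Lib.Helper12.LBP

open Matrix Cfsg.Agent.Lib.Helper43.PA Cfsg.Agent.Lib.Helper43.PU Cfsg.Agent.Lib.Helper80.LBP
  Cfsg.Agent.Lib.Helper5

variable {n q : ℕ} {F : Type*} [Field F] [Fintype F]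

section sub

variable {F₀ : Type*} [Field F₀] [Fintype F₀] {q₀ : ℕ} (hF : Fintype.card F = q ^ 2)
  (hF₀ : Fintype.card F₀ = q₀ ^ 2) (ι : F₀ →+* F) (hpow : ∀ y : F₀, y ^ q = y ^ q₀)

include hF hF₀ hpow

lemma map_mem_SU_iff (s₀ : Matrix.SpecialLinearGroup (Fin n) F₀) :
    Matrix.SpecialLinearGroup.map ι s₀ ∈ Cfsg.SU n F q ↔ s₀ ∈ Cfsg.SU n F₀ q₀ :=
  map_mem_GU_iff hF hF₀ ι hpow (Matrix.SpecialLinearGroup.toGL s₀)

/-- `SU_n(q₀) → SU_n(q)` -/
noncomputable def mapSU : ↥(Cfsg.SU n F₀ q₀) →* ↥(Cfsg.SU n F q) where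
  toFun s₀ := ⟨Matrix.SpecialLinearGroup.map ι s₀.1, (map_mem_SU_iff hF hF₀ ι hpow s₀.1).2 s₀.2⟩
  map_one' := Subtype.ext (map_one _)
  map_mul' _ _ := Subtype.ext (map_mul _ _ _)

lemma mapSU_coe (s₀ : ↥(Cfsg.SU n F₀ q₀)) : (mapSU hF hF₀ ι hpow s₀).1.1 = s₀.1.1.map ι := rfl

lemma mapSU_injective : Function.Injective (mapSU (n := n) hF hF₀ ι hpow) := by
  intro a b hab
  apply SU_ext
  apply Matrix.map_injective ι.injective
  exact congrArg (fun s : ↥(Cfsg.SU n F q) => s.1.1) hab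

/-- `SU_n(q₀) → PSU_n(q)` -/
noncomputable def rhoU : ↥(Cfsg.SU n F₀ q₀) →* Cfsg.PSU n F q :=
  (QuotientGroup.mk' (Subgroup.center ↥(Cfsg.SU n F q))).comp (mapSU hF hF₀ ι hpow)

lemma rhoU_ker : (rhoU (n := n) hF hF₀ ι hpow).ker = Subgroup.center ↥(Cfsg.SU n F₀ q₀) := by
  ext s
  rw [MonoidHom.mem_ker]
  show (QuotientGroup.mk (mapSU hF hF₀ ι hpow s) : Cfsg.PSU n F q) = 1 ↔ _
  rw [QuotientGroup.eq_one_iff]
  constructor
  · intro h
    rw [Subgroup.mem_center_iff] at h ⊢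
    intro g
    apply mapSU_injective hF hF₀ ι hpow
    rw [map_mul, map_mul]
    exact h _
  · intro h
    obtain ⟨a, ha⟩ := SU_center_scalar hF₀ s h
    rw [Subgroup.mem_center_iff]
    intro g
    apply SU_ext
    rw [SU_mul_coe, SU_mul_coe, mapSU_coe, ha]
    have : (Matrix.scalar (Fin n) a).map ι = Matrix.scalar (Fin n) (ι a) := by
      ext i j
      by_cases hij : i = j
      · subst hij; simp
      · simp [hij]
    rw [this]
    exact ((Matrix.scalar_commute (ι a) (fun r => mul_comm _ _) g.1.1)).symm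

lemma rhoU_range (σ : F ≃+* F) (hι : ∀ x, σ x = x ↔ ∃ y, ι y = x) :
    (rhoU (n := n) hF hF₀ ι hpow).range = LLg (fieldSU σ : MulAut ↥(Cfsg.SU n F q)) := by
  ext k
  constructor
  · rintro ⟨s, rfl⟩
    refine ⟨mapSU hF hF₀ ι hpow s, ?_, rfl⟩
    show fieldSU σ (mapSU hF hF₀ ι hpow s) = mapSU hF hF₀ ι hpow s
    apply SU_ext
    ext i j
    exact (hι _).2 ⟨s.1.1 i j, rfl⟩
  · rintro ⟨s, hs, rfl⟩
    have hs' : fieldSU σ s = s := hs
    have hfix : ∀ i j, ∃ y, ι y = s.1.1 i j := fun i j =>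
      (hι _).1 (congrFun (congrFun (congrArg (fun t : ↥(Cfsg.SU n F q) => t.1.1) hs') i) j)
    choose y hy using hfix
    let s0 : Matrix (Fin n) (Fin n) F₀ := Matrix.of y
    have hmap : s0.map ι = s.1.1 := by
      ext i j; exact hy i j
    have hdet : s0.det = 1 := by
      apply ι.injective
      rw [RingHom.map_det, map_one]
      show (s0.map ι).det = 1
      rw [hmap]
      exact s.1.2
    obtain ⟨t, ht⟩ : ∃ t : Matrix.SpecialLinearGroup (Fin n) F₀, t.1 = s0 := ⟨⟨s0, hdet⟩, rfl⟩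
    have hts : Matrix.SpecialLinearGroup.map ι t = s.1 := by
      apply Subtype.ext
      show t.1.map ι = s.1.1
      rw [ht, hmap]
    have htm : t ∈ Cfsg.SU n F₀ q₀ := by
      rw [← map_mem_SU_iff hF hF₀ ι hpow, hts]
      exact s.2
    refine ⟨⟨t, htm⟩, ?_⟩
    show (QuotientGroup.mk (mapSU hF hF₀ ι hpow ⟨t, htm⟩) : Cfsg.PSU n F q) = QuotientGroup.mk s
    congr 1
    exact Subtype.ext hts

/-- `PSU_n(q₀) → PSU_n(q)` -/
noncomputable def rhoBarU : Cfsg.PSU n F₀ q₀ →* Cfsg.PSU n F q :=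
  QuotientGroup.lift (Subgroup.center ↥(Cfsg.SU n F₀ q₀)) (rhoU hF hF₀ ι hpow)
    (fun s hs => by rw [← rhoU_ker hF hF₀ ι hpow] at hs; exact hs)

lemma rhoBarU_injective : Function.Injective (rhoBarU (n := n) hF hF₀ ι hpow) := by
  rw [injective_iff_map_eq_one]
  intro k hk
  induction k using QuotientGroup.induction_on with
  | H s =>
    have : rhoU hF hF₀ ι hpow s = 1 := hk
    rw [QuotientGroup.eq_one_iff, ← rhoU_ker hF hF₀ ι hpow]
    exact this

lemma rhoBarU_range (σ : F ≃+* F) (hι : ∀ x, σ x = x ↔ ∃ y, ι y = x) :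
    (rhoBarU (n := n) hF hF₀ ι hpow).range = LLg (fieldSU σ : MulAut ↥(Cfsg.SU n F q)) := by
  rw [← rhoU_range hF hF₀ ι hpow σ hι]
  ext k
  constructor
  · rintro ⟨x, rfl⟩
    induction x using QuotientGroup.induction_on with
    | H s => exact ⟨s, rfl⟩
  · rintro ⟨s, rfl⟩
    exact ⟨QuotientGroup.mk s, rfl⟩

end sub

/-- an element of `LLg θ` of order `p`. -/
lemma dvd_card_LLg_of {S : Type*} [Group S] [Finite S] {θ : MulAut S} {p : ℕ} (hp : p.Prime)
    (y : S) (hy : θ y = y) (hyp : y ^ p ∈ Subgroup.center S) (hyc : y ∉ Subgroup.center S) :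
    p ∣ Nat.card (LLg θ) := by
  have := Fact.mk hp
  have hmem : (QuotientGroup.mk y : S ⧸ Subgroup.center S) ∈ LLg θ := mk_mem_LLg hy
  have hord : orderOf (⟨QuotientGroup.mk y, hmem⟩ : LLg θ) = p := by
    apply orderOf_eq_prime
    · apply Subtype.ext
      show (QuotientGroup.mk y : S ⧸ Subgroup.center S) ^ p = 1
      rw [← QuotientGroup.mk_pow, QuotientGroup.eq_one_iff]
      exact hyp
    · intro h
      apply hyc
      have := congrArg Subtype.val h
      exact (QuotientGroup.eq_one_iff y).1 this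
  rw [← hord]
  exact orderOf_dvd_natCard _

/-- (a): `p` divides the order of `L`. -/
lemma dvd_card_LLU (hF : Fintype.card F = q ^ 2) (hn : 3 ≤ n) (σ : F ≃+* F) {p : ℕ} (hp : p.Prime)
    (hσ : orderOf σ = p) (hpK : p ∣ Nat.card (Cfsg.PSU n F q)) :
    p ∣ Nat.card (LLg (fieldSU σ : MulAut ↥(Cfsg.SU n F q))) := by
  classical
  have := Fact.mk hp
  have h1 : p ∣ Nat.card ↥(Cfsg.SU n F q) := hpK.trans (Subgroup.card_quotient_dvd_card _)
  have hβ : (fieldSU σ : MulAut ↥(Cfsg.SU n F q)) ^ p = 1 := by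
    rw [← map_pow, ← hσ, pow_orderOf_eq_one, map_one]
  have h2 := (dvd_card_fix_iff (fieldSU σ : MulAut ↥(Cfsg.SU n F q)) hβ).2 h1
  obtain ⟨⟨x, hxS⟩, hx⟩ := exists_prime_orderOf_dvd_card' p h2
  have hxfix : fieldSU σ x = x := hxS
  have hxo : orderOf x = p := by
    rw [← hx]; exact (Subgroup.orderOf_mk x hxS).symm
  by_cases hxc : x ∈ Subgroup.center ↥(Cfsg.SU n F q)
  swap
  · refine dvd_card_LLg_of hp x hxfix ?_ hxc
    rw [← hxo, pow_orderOf_eq_one]
    exact Subgroup.one_mem _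
  obtain ⟨ζ, hζ⟩ := SU_center_scalar hF x hxc
  let j0 : Fin n := ⟨0, by omega⟩
  let j1 : Fin n := ⟨1, by omega⟩
  let j2 : Fin n := ⟨2, by omega⟩
  have h01 : j0 ≠ j1 := by simp [j0, j1, Fin.ext_iff]
  have h02 : j2 ≠ j0 := by simp [j0, j2, Fin.ext_iff]
  have h12 : j2 ≠ j1 := by simp [j1, j2, Fin.ext_iff]
  have hσζ : σ ζ = ζ := by
    have := congrFun (congrFun (congrArg (fun t : ↥(Cfsg.SU n F q) => t.1.1) hxfix) j0) j0
    have e : (fieldSU σ x).1.1 j0 j0 = σ (x.1.1 j0 j0) := rfl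
    simp only [e, hζ] at this
    simpa using this
  have hζp : ζ ^ p = 1 := by
    have h3 : x ^ p = 1 := by rw [← hxo, pow_orderOf_eq_one]
    have h4 : (x ^ p).1.1 = (1 : Matrix (Fin n) (Fin n) F) := by rw [h3]; rfl
    have h5 : (x ^ p).1.1 = x.1.1 ^ p := by
      rw [SubgroupClass.coe_pow, Matrix.SpecialLinearGroup.coe_pow]
    rw [h5, hζ, ← map_pow] at h4
    have h6 := congrFun (congrFun h4 j0) j0
    simpa using h6
  have hζ1 : ζ ≠ 1 := by
    rintro rfl
    have : x = 1 := by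
      apply SU_ext
      rw [hζ]; simp
    rw [this, orderOf_one] at hxo
    exact hp.one_lt.ne hxo
  have hζ0 : ζ ≠ 0 := by
    rintro rfl
    rw [zero_pow hp.ne_zero] at hζp
    exact zero_ne_one hζp
  have hζq : ζ ^ (q + 1) = 1 := by
    have h3 := x.2 (Pi.single j0 1) (Pi.single j0 1)
    have h4 : (Cfsg.slToMat n F) x.1 = Matrix.scalar (Fin n) ζ := hζ
    rw [h4] at h3
    have h5 : Matrix.scalar (Fin n) ζ *ᵥ (Pi.single j0 1 : Fin n → F) = ζ • Pi.single j0 1 := by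
      ext i
      simp [Matrix.scalar_apply, Matrix.mulVec_diagonal]
    have h6 : Cfsg.hermForm n F q (Pi.single j0 1) (Pi.single j0 1) = 1 := by
      unfold Cfsg.hermForm
      rw [Finset.sum_eq_single j0]
      · simp
      · intro i _ hi
        simp [Pi.single_eq_of_ne hi]
      · simp
    rw [h5, Cfsg.Agent.Lib.Helper13.hermForm_smul_left, Cfsg.Agent.Lib.Helper13.hermForm_smul_right,
      h6] at h3
    rw [pow_succ']
    linear_combination h3
  let d : Fin n → F := fun i => (if i = j0 then ζ else 1) * (if i = j1 then ζ⁻¹ else 1)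
  have hdet : (Matrix.diagonal d).det = 1 := by
    rw [Matrix.det_diagonal, Finset.prod_mul_distrib, Finset.prod_ite_eq', Finset.prod_ite_eq']
    simp [hζ0]
  have hdp : ∀ i, d i ^ p = 1 := by
    intro i
    simp only [d]
    split_ifs <;> simp [mul_pow, hζp]
  have hdq : ∀ i, d i ^ (q + 1) = 1 := by
    intro i
    simp only [d]
    split_ifs <;> simp [mul_pow, hζq]
  have hdσ : ∀ i, σ (d i) = d i := by
    intro i
    simp only [d]
    split_ifs <;> simp [hσζ]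
  let y : ↥(Cfsg.SU n F q) := mkSU (Matrix.diagonal d) hdet (diagonal_preserves d hdq)
  have hy : y.1.1 = Matrix.diagonal d := rfl
  refine dvd_card_LLg_of hp y ?_ ?_ ?_
  · apply SU_ext
    show y.1.1.map σ = y.1.1
    rw [hy, Matrix.diagonal_map (map_zero σ)]
    congr 1
    funext i
    exact hdσ i
  · have : y ^ p = 1 := by
      apply SU_ext
      rw [SubgroupClass.coe_pow, Matrix.SpecialLinearGroup.coe_pow, hy, Matrix.diagonal_pow]
      show _ = (1 : Matrix (Fin n) (Fin n) F)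
      rw [← Matrix.diagonal_one]
      congr 1
      funext i
      exact hdp i
    rw [this]
    exact Subgroup.one_mem _
  · intro hc
    obtain ⟨a, ha⟩ := SU_center_scalar hF y hc
    rw [hy] at ha
    have e0 := congrFun (congrFun ha j0) j0
    have e2 := congrFun (congrFun ha j2) j2
    simp [d, h01, h02, h12] at e0 e2
    exact hζ1 (e0.trans e2.symm)

/-- [Q2] -/
theorem hb_UF {r f : ℕ} [Fact r.Prime] (hq : q = r ^ f) (hf : 1 ≤ f)
    (hF : Fintype.card F = q ^ 2) (hn : 3 ≤ n) (σ : F ≃+* F) {p : ℕ}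
    (hp : p.Prime) (hσ : orderOf σ = p) (hodd : Odd p) (hpr : p ≠ r)
    (hpK : p ∣ Nat.card (Cfsg.PSU n F q))
    (M : Subgroup (Cfsg.PSU n F q)) (hM : M ≤ LLg (fieldSU σ : MulAut ↥(Cfsg.SU n F q)))
    (hnorm : ∀ l ∈ LLg (fieldSU σ : MulAut ↥(Cfsg.SU n F q)), ∀ k ∈ M, l * k * l⁻¹ ∈ M)
    (hne : M ≠ ⊥) : p ∣ Nat.card M := by
  classical
  have hL := dvd_card_LLU hF hn σ hp hσ hpK
  have hF' : Fintype.card F = r ^ (2 * f) := by rw [hF, hq, ← pow_mul, mul_comm]
  have hp2 : p ∣ 2 * f := hσ ▸ orderOf_dvd_of_card hF' σ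
  have hpf : p ∣ f := (Nat.Coprime.dvd_of_dvd_mul_left (Nat.Coprime.symm hodd.coprime_two_left) hp2)
  have hdiv : 2 * f / p = 2 * (f / p) := Nat.mul_div_assoc 2 hpf
  let _ : Fintype (fixK σ) := Fintype.ofFinite _
  obtain ⟨q₀, hq₀⟩ : ∃ q₀, q₀ = r ^ (f / p) := ⟨_, rfl⟩
  have hF₀ : Fintype.card (fixK σ) = q₀ ^ 2 := by
    rw [Fintype.card_eq_nat_card, card_fixK hF' (by omega) σ, hσ, hdiv, hq₀, ← pow_mul, mul_comm]
  have hpow : ∀ y : fixK σ, y ^ q = y ^ q₀ := by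
    intro y
    obtain ⟨k, hk⟩ := hodd
    have : q = q₀ ^ (2 * k + 1) := by
      rw [hq₀, ← pow_mul, ← hk, Nat.div_mul_cancel hpf, hq]
    rw [this, pow_q_odd hF₀]
  have hι : ∀ x, σ x = x ↔ ∃ y : fixK σ, (fixK σ).subtype y = x := by
    intro x
    constructor
    · intro h
      exact ⟨⟨x, mem_fixK.2 h⟩, rfl⟩
    · rintro ⟨y, rfl⟩
      exact mem_fixK.1 y.2
  set g := rhoBarU (n := n) hF hF₀ (fixK σ).subtype hpow with hg
  have hinj : Function.Injective g := rhoBarU_injective hF hF₀ _ hpow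
  have hrange : g.range = LLg (fieldSU σ : MulAut ↥(Cfsg.SU n F q)) :=
    rhoBarU_range hF hF₀ _ hpow σ hι
  set N := M.comap g with hN
  have hmap : N.map g = M := by
    rw [hN, Subgroup.map_comap_eq, inf_eq_right, hrange]
    exact hM
  have hcard : Nat.card N = Nat.card M := by
    rw [← hmap]; exact (Subgroup.card_map_of_injective hinj).symm
  have hNn : N.Normal := by
    refine ⟨fun k hk x => ?_⟩
    show g (x * k * x⁻¹) ∈ M
    rw [map_mul, map_mul, map_inv]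
    exact hnorm _ (hrange ▸ ⟨x, rfl⟩) _ hk
  have hNne : N ≠ ⊥ := by
    intro h
    apply hne
    rw [← hmap, h, Subgroup.map_bot]
  have hcardL : Nat.card (Cfsg.PSU n (fixK σ) q₀) =
      Nat.card (LLg (fieldSU σ : MulAut ↥(Cfsg.SU n F q))) := by
    rw [← hrange]
    exact Nat.card_congr (MonoidHom.ofInjective hinj).toEquiv
  by_cases h32 : n = 3 ∧ q₀ = 2
  · obtain ⟨rfl, rfl⟩ := h32
    have h72 := (Cfsg.Agent.S0282.result (F := fixK σ) (by rw [hF₀]; norm_num)).1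
    rw [← hcardL, h72] at hL
    have hp3 : p = 3 := by
      have h1 : p ∣ 2 ^ 3 * 3 ^ 2 := by norm_num; exact hL
      rcases (Nat.Prime.dvd_mul hp).1 h1 with h | h
      · have := (Nat.prime_dvd_prime_iff_eq hp Nat.prime_two).1 (hp.dvd_of_dvd_pow h)
        subst this
        exact absurd hodd (by decide)
      · exact (Nat.prime_dvd_prime_iff_eq hp Nat.prime_three).1 (hp.dvd_of_dvd_pow h)
    rw [hp3, ← hcard]
    exact su32 hF₀ N hNne
  · have hs : IsSimpleGroup (Cfsg.PSU n (fixK σ) q₀) := psu_isSimpleGroup hF₀ hn h32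
    rcases hs.eq_bot_or_eq_top_of_normal N hNn with h | h
    · exact absurd h hNne
    · have : M = LLg (fieldSU σ : MulAut ↥(Cfsg.SU n F q)) := by
        rw [← hmap, h, ← hrange, MonoidHom.range_eq_map]
      rw [this]
      exact hL

end Cfsg.Agent.Lib.Helper12.LBP
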