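import Cfsg.Agent.Lib.Helper5.SUSimple
import Cfsg.Agent.Lib.Helper5.SUCenter
import Cfsg.Agent.Lib.Helper43.PU.Tv

set_option autoImplicit false
set_option linter.unusedSectionVars false

/-!
# Piece Q2c (`su32`) of the S2687 farm: nontrivial normal subgroups of `PSU_3(2)` have order
divisible by `3`.
-/

namespace Cfsg.Agent.Lib.Helper12.LBP

open Matrix Module Cfsg.Agent.Lib.Helper5 Cfsg.Agent.Lib.Helper13
  Cfsg.Agent.Lib.Helper94 Cfsg.Agent.Lib.Helper94.U Cfsg.Agent.Lib.Helper45.SUGen
open scoped LinearAlgebra.Projectivization Pointwise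

variable {F : Type*} [Field F] [Fintype F] {q n : ℕ}

local notation "H" => Cfsg.hermForm n F q
local notation "V" => (Fin n → F)
local notation "G" => Cfsg.SU n F q

/-- eigenvalues on non-perpendicular isotropic vectors agree -/
lemma eig_eq (hF : Fintype.card F = q ^ 2) (A : G)
    (hA : ∀ v : V, v ≠ 0 → H v v = 0 → ∃ c : F, A.1.1 *ᵥ v = c • v) {v f : V}
    (hv : H v v = 0) (hl : H f f = 0) (hfv : H f v ≠ 0) {a b : F} (ha : A.1.1 *ᵥ v = a • v)
    (hb : A.1.1 *ᵥ f = b • f) : a = b := by
  have hvf : H v f ≠ 0 := fun h => hfv (hermForm_eq_zero_comm hF h)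
  obtain ⟨e, he0, he⟩ := exists_skew_q hF
  have hy : H (v + (e / H f v) • f) (v + (e / H f v) • f) = 0 := by
    simp only [hermForm_add_left, hermForm_add_right hF, hermForm_smul_left, hermForm_smul_right,
      hv, hl, div_pow, hermForm_swap hF]
    field_simp
    linear_combination (H f v * H v f) * he
  have hy0 : v + (e / H f v) • f ≠ 0 := by
    intro h
    have := congrArg (fun y => H y v) h
    simp only [hermForm_add_left, hermForm_smul_left, hv, hermForm_zero_left] at this
    field_simp at this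
    exact he0 (by simpa using this)
  obtain ⟨d, hd⟩ := hA _ hy0 hy
  rw [mulVec_add, mulVec_smul, ha, hb] at hd
  have h1 := congrArg (fun y => H y v) hd
  have h2 := congrArg (fun y => H y f) hd
  simp only [hermForm_add_left, hermForm_smul_left, hv, hl] at h1 h2
  have hbd : b = d := by
    field_simp at h1
    have : e * (b - d) = 0 := by linear_combination h1
    rcases mul_eq_zero.1 this with h | h
    · exact absurd h he0
    · exact sub_eq_zero.1 h
  have had : a = d := by
    have : (a - d) * H v f = 0 := by linear_combination h2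
    rcases mul_eq_zero.1 this with h | h
    · exact sub_eq_zero.1 h
    · exact absurd h hvf
  rw [had, hbd]

/-- an element of `SU_n(q)` fixing all isotropic points is scalar (no exception) -/
theorem scalar_of_fix (hF : Fintype.card F = q ^ 2) (hn : 3 ≤ n) (A : G)
    (hA : ∀ v : V, v ≠ 0 → H v v = 0 → ∃ c : F, A.1.1 *ᵥ v = c • v) :
    ∃ a : F, ∀ x : V, A.1.1 *ᵥ x = a • x := by
  obtain ⟨e, he0, he⟩ := exists_isotropic_ne_zero (n := n) hF hn
  obtain ⟨le, hle⟩ := hA e he0 he
  refine ⟨le, ?_⟩
  have hall : ∀ v : V, H v v = 0 → A.1.1 *ᵥ v = le • v := by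
    intro v hv
    by_cases hv0 : v = 0
    · rw [hv0, mulVec_zero, smul_zero]
    obtain ⟨lv, hlv⟩ := hA v hv0 hv
    obtain ⟨y, hy, hvy, hey⟩ := exists_isotropic_not_perp hF hv0 he0 hv he
    have hy0 : y ≠ 0 := by
      rintro rfl
      exact hvy (hermForm_zero_right hF _)
    obtain ⟨ly, hly⟩ := hA y hy0 hy
    have h1 : ly = lv := eig_eq hF A hA hy hv hvy hly hlv
    have h2 : ly = le := eig_eq hF A hA hy he hey hly hle
    rw [hlv, ← h1, h2]
  obtain ⟨y, hy, hey, -⟩ := exists_isotropic_not_perp hF he0 he0 he he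
  have hN : le * le ^ q = 1 := by
    have := SU_preserves A e y
    rw [hall e he, hall y hy, hermForm_smul_left, hermForm_smul_right] at this
    have h3 : (le * le ^ q - 1) * H e y = 0 := by linear_combination this
    rcases mul_eq_zero.1 h3 with h | h
    · exact sub_eq_zero.1 h
    · exact absurd h hey
  intro x
  rw [← sub_eq_zero]
  apply Cfsg.Agent.Lib.Helper43.PU.eq_zero_of_perp_isotropic hF hn
  intro v hv
  have := SU_preserves A x v
  rw [hall v hv, hermForm_smul_right] at this
  rw [hermForm_sub_left, hermForm_smul_left]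
  linear_combination le * this - (H (A.1.1 *ᵥ x) v) * hN

theorem mem_center_of_fix (hF : Fintype.card F = q ^ 2) (hn : 3 ≤ n) (A : G)
    (hA : ∀ v : V, v ≠ 0 → H v v = 0 → ∃ c : F, A.1.1 *ᵥ v = c • v) :
    A ∈ Subgroup.center G := by
  obtain ⟨a, ha⟩ := scalar_of_fix hF hn A hA
  rw [Subgroup.mem_center_iff]
  intro g
  apply SU_ext_mulVec
  intro x
  rw [SU_mul_mulVec, SU_mul_mulVec, ha, ha, mulVec_smul]

/-- the number of isotropic points divides the order of every nontrivial normal subgroup of
`PSU_n(q)` -/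
theorem card_isoPt_dvd (hF : Fintype.card F = q ^ 2) (hn : 3 ≤ n) (M : Subgroup (Cfsg.PSU n F q))
    [M.Normal] (hM : M ≠ ⊥) : Nat.card (IsoPt n F q) ∣ Nat.card M := by
  classical
  let π := QuotientGroup.mk' (Subgroup.center G)
  set N : Subgroup G := M.comap π with hN
  have hNn : N.Normal := inferInstance
  have hprim := su_isPreprimitive (n := n) hF
  have hfix : MulAction.fixedPoints N (IsoPt n F q) ≠ Set.univ := by
    intro hfix
    apply hM
    rw [eq_bot_iff]
    intro k hk
    obtain ⟨A, rfl⟩ := QuotientGroup.mk'_surjective _ k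
    have hA : A ∈ N := hk
    rw [Subgroup.mem_bot]
    show (QuotientGroup.mk A : Cfsg.PSU n F q) = 1
    rw [QuotientGroup.eq_one_iff]
    apply mem_center_of_fix hF hn
    intro v hv hq
    have h1 : (⟨A, hA⟩ : N) • IsoPt.mk v hv hq = IsoPt.mk v hv hq :=
      (Set.eq_univ_iff_forall.1 hfix _) ⟨A, hA⟩
    change A • IsoPt.mk v hv hq = _ at h1
    rw [su_smul_mk, IsoPt.mk_eq_mk_iff] at h1
    obtain ⟨c, hc⟩ := h1
    exact ⟨c, hc.symm⟩
  have htr : MulAction.IsPretransitive N (IsoPt n F q) :=
    MulAction.IsQuasiPreprimitive.isPretransitive_of_normal hfix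
  obtain ⟨v, hv0, hv⟩ := exists_isotropic_ne_zero (n := n) hF hn
  let x0 : IsoPt n F q := IsoPt.mk v hv0 hv
  have h1 : (MulAction.stabilizer N x0).index = Nat.card (IsoPt n F q) :=
    MulAction.index_stabilizer_of_transitive N x0
  have h2 : (Subgroup.center G).subgroupOf N ≤ MulAction.stabilizer N x0 := by
    intro z hz
    obtain ⟨a, ha⟩ := SU_center_scalar hF z.1 hz
    rw [MulAction.mem_stabilizer_iff]
    change z.1 • IsoPt.mk v hv0 hv = IsoPt.mk v hv0 hv
    rw [su_smul_mk, IsoPt.mk_eq_mk_iff]
    refine ⟨a, ?_⟩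
    rw [ha]
    ext i
    simp [Matrix.scalar_apply, Matrix.mulVec_diagonal]
  have h3 := Subgroup.index_dvd_of_le h2
  rw [h1] at h3
  have h4 : ((Subgroup.center G).subgroupOf N).index = Nat.card M := by
    show (Subgroup.center G).relIndex N = _
    have h5 : (⊥ : Subgroup (Cfsg.PSU n F q)).comap π = Subgroup.center G :=
      QuotientGroup.ker_mk' _
    have h6 := Subgroup.relIndex_comap (⊥ : Subgroup (Cfsg.PSU n F q)) π N
    rw [Subgroup.relIndex_bot_left, hN,
      Subgroup.map_comap_eq_self_of_surjective (QuotientGroup.mk'_surjective _)] at h6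
    rw [← h6]
    exact (congrArg (fun K : Subgroup G => K.relIndex (Subgroup.comap π M)) h5).symm
  rwa [h4] at h3

/-- [Q2c] -/
theorem su32 {F0 : Type*} [Field F0] [Fintype F0] (hF0 : Fintype.card F0 = 2 ^ 2)
    (M : Subgroup (Cfsg.PSU 3 F0 2)) [M.Normal] (hM : M ≠ ⊥) : 3 ∣ Nat.card M := by
  classical
  refine dvd_trans ?_ (card_isoPt_dvd hF0 le_rfl M hM)
  have hfin : Finite (IsoPt 3 F0 2) := by unfold IsoPt; infer_instance
  -- an element of order three of the field
  obtain ⟨w, hw0, hw1⟩ : ∃ w : F0, w ≠ 0 ∧ w ≠ 1 := by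
    by_contra hcon
    push Not at hcon
    have h1 : (Finset.univ : Finset F0) ⊆ {0, 1} := by
      intro w _
      by_cases h : w = 0
      · simp [h]
      · simp [hcon w h]
    have h2 := Finset.card_le_card h1
    rw [Finset.card_univ, hF0] at h2
    have h3 : ({0, 1} : Finset F0).card ≤ 2 := Finset.card_le_two
    omega
  have hw3 : w ^ 3 = 1 := by
    have := FiniteField.pow_card_sub_one_eq_one w hw0
    rwa [hF0] at this
  have hw2 : w ^ 2 ≠ 1 := by
    intro h
    apply hw1
    calc w = w ^ 3 * (w ^ 2)⁻¹ := by field_simp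
      _ = 1 := by rw [hw3, h]; simp
  have hw21 : w ^ 2 ≠ w := by
    intro h
    apply hw1
    have : w * (w - 1) = 0 := by linear_combination h
    rcases mul_eq_zero.1 this with h' | h'
    · exact absurd h' hw0
    · exact sub_eq_zero.1 h'
  let dv : Fin 3 → F0 := ![1, w, w ^ 2]
  have hdv : ∀ i, dv i ^ (2 + 1) = 1 := by
    intro i
    fin_cases i
    · simp [dv]
    · simpa [dv] using hw3
    · show (w ^ 2) ^ 3 = 1
      rw [← pow_mul, mul_comm, pow_mul, hw3, one_pow]
  have hdet : (Matrix.diagonal dv).det = 1 := by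
    rw [Matrix.det_diagonal, Fin.prod_univ_three]
    show 1 * w * w ^ 2 = 1
    linear_combination hw3
  let d : Cfsg.SU 3 F0 2 := mkSU (Matrix.diagonal dv) hdet (diagonal_preserves dv hdv)
  have hd3 : d ^ 3 = 1 := by
    apply SU_ext
    show ((d ^ 3 : Cfsg.SU 3 F0 2).1.1) = 1
    have : (d ^ 3 : Cfsg.SU 3 F0 2).1.1 = (Matrix.diagonal dv) ^ 3 := rfl
    rw [this, Matrix.diagonal_pow, ← Matrix.diagonal_one]
    congr 1
    funext i
    exact hdv i
  have hP : IsPGroup 3 (Subgroup.zpowers d) := by
    rintro ⟨x, hx⟩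
    obtain ⟨k, rfl⟩ := Subgroup.mem_zpowers_iff.1 hx
    refine ⟨1, Subtype.ext ?_⟩
    show (d ^ k) ^ 3 ^ 1 = 1
    rw [pow_one, ← zpow_natCast, ← _root_.zpow_mul, mul_comm, _root_.zpow_mul, zpow_natCast, hd3,
      _root_.one_zpow]
  have : Fact (Nat.Prime 3) := ⟨Nat.prime_three⟩
  have h1 := hP.card_modEq_card_fixedPoints (IsoPt 3 F0 2)
  have h2 : IsEmpty (MulAction.fixedPoints (Subgroup.zpowers d) (IsoPt 3 F0 2)) := by
    constructor
    rintro ⟨x, hx⟩
    have hx' : d • x = x := hx ⟨d, Subgroup.mem_zpowers d⟩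
    revert hx'
    induction x using IsoPt.ind with | h v hv hq => ?_
    intro hx'
    rw [su_smul_mk, IsoPt.mk_eq_mk_iff] at hx'
    obtain ⟨c, hc⟩ := hx'
    have hdm : d.1.1 *ᵥ v = fun i => dv i * v i := by
      show Matrix.diagonal dv *ᵥ v = _
      funext i
      rw [Matrix.mulVec_diagonal]
    rw [hdm] at hc
    have e0 : c * v 0 = v 0 := by simpa [dv] using congrFun hc 0
    have e1 : c * v 1 = w * v 1 := by simpa [dv] using congrFun hc 1
    have e2 : c * v 2 = w ^ 2 * v 2 := by simpa [dv] using congrFun hc 2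
    have hH : v 0 ^ 3 + v 1 ^ 3 + v 2 ^ 3 = 0 := by
      have : Cfsg.hermForm 3 F0 2 v v = v 0 ^ 3 + v 1 ^ 3 + v 2 ^ 3 := by
        unfold Cfsg.hermForm
        rw [Fin.sum_univ_three]
        ring
      rw [← this]; exact hq
    by_cases h0 : v 0 = 0
    · by_cases h1' : v 1 = 0
      · have h2' : v 2 ≠ 0 := by
          intro h2'
          apply hv
          funext i
          fin_cases i
          · exact h0
          · exact h1'
          · exact h2'
        rw [h0, h1'] at hH
        apply h2'
        have : v 2 ^ 3 = 0 := by linear_combination hH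
        exact pow_eq_zero_iff (by norm_num) |>.1 this
      · have hc : c = w := mul_right_cancel₀ h1' e1
        have h2' : v 2 = 0 := by
          rw [hc] at e2
          have : (w ^ 2 - w) * v 2 = 0 := by linear_combination -e2
          rcases mul_eq_zero.1 this with h | h
          · exact absurd (sub_eq_zero.1 h) hw21
          · exact h
        rw [h0, h2'] at hH
        apply h1'
        have : v 1 ^ 3 = 0 := by linear_combination hH
        exact pow_eq_zero_iff (by norm_num) |>.1 this
    · have hc : c = 1 := mul_right_cancel₀ h0 (by rw [one_mul]; exact e0)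
      rw [hc] at e1 e2
      have h1' : v 1 = 0 := by
        have : (w - 1) * v 1 = 0 := by linear_combination -e1
        rcases mul_eq_zero.1 this with h | h
        · exact absurd (sub_eq_zero.1 h) hw1
        · exact h
      have h2' : v 2 = 0 := by
        have : (w ^ 2 - 1) * v 2 = 0 := by linear_combination -e2
        rcases mul_eq_zero.1 this with h | h
        · exact absurd (sub_eq_zero.1 h) hw2
        · exact h
      rw [h1', h2'] at hH
      apply h0
      have : v 0 ^ 3 = 0 := by linear_combination hH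
      exact pow_eq_zero_iff (by norm_num) |>.1 this
  have h3 : Nat.card (MulAction.fixedPoints (Subgroup.zpowers d) (IsoPt 3 F0 2)) = 0 :=
    Nat.card_of_isEmpty
  rw [h3] at h1
  exact (Nat.modEq_zero_iff_dvd).1 h1

end Cfsg.Agent.Lib.Helper12.LBP
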