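import Mathlib

set_option autoImplicit false

namespace Cfsg.Agent.Lib.Helper12.RegNormal

open MulAction SubMulAction
open scoped Pointwise

variable {G X : Type*} [Group G] [MulAction G X]

/-- If the pointwise stabiliser `K` of `s` is primitive on the complement of `s`, then a subgroup of `K`
containing the stabiliser of `c` in `K` and moving `c` is transitive on the complement. -/
theorem exists_mem_smul_eq_of_preprimitive (s : Set X)
    (hprim : IsPreprimitive (fixingSubgroup G s) (ofFixingSubgroup G s))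
    (L : Subgroup G) (hL : L ≤ fixingSubgroup G s) {c : X} (hc : c ∉ s)
    (hstab : fixingSubgroup G s ⊓ stabilizer G c ≤ L) (hmove : ∃ g ∈ L, g • c ≠ c) :
    ∀ y, y ∉ s → ∃ g ∈ L, g • c = y := by
  obtain ⟨g, hgL, hgc⟩ := hmove
  have hc' : c ∈ ofFixingSubgroup G s := (mem_ofFixingSubgroup_iff G).mpr hc
  set c' : ofFixingSubgroup G s := ⟨c, hc'⟩ with hc'def
  set g' : fixingSubgroup G s := ⟨g, hL hgL⟩ with hg'def
  have hne : g' • c' ≠ c' := by
    intro h
    apply hgc
    exact congrArg Subtype.val h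
  have hnt : Nontrivial (ofFixingSubgroup G s) := ⟨g' • c', c', hne⟩
  have hco : IsCoatom (stabilizer (fixingSubgroup G s) c') :=
    IsPreprimitive.isCoatom_stabilizer_of_isPreprimitive _ c'
  have hle : stabilizer (fixingSubgroup G s) c' ≤ L.subgroupOf (fixingSubgroup G s) := by
    intro k hk
    rw [Subgroup.mem_subgroupOf]
    apply hstab
    rw [mem_stabilizer_iff] at hk
    have hk2 : (k : G) ∈ stabilizer G c := by
      rw [mem_stabilizer_iff]
      exact congrArg Subtype.val hk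
    exact ⟨k.2, hk2⟩
  have htop : L.subgroupOf (fixingSubgroup G s) = ⊤ := by
    apply hco.2
    refine lt_of_le_of_ne hle ?_
    intro h
    apply hne
    have : g' ∈ L.subgroupOf (fixingSubgroup G s) := by
      rw [Subgroup.mem_subgroupOf]; exact hgL
    rw [← h] at this
    exact this
  intro y hy
  have hy' : y ∈ ofFixingSubgroup G s := (mem_ofFixingSubgroup_iff G).mpr hy
  obtain ⟨k, hk⟩ := exists_smul_eq (fixingSubgroup G s) c' (⟨y, hy'⟩ : ofFixingSubgroup G s)
  have hkL : k ∈ L.subgroupOf (fixingSubgroup G s) := by rw [htop]; trivial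
  exact ⟨k.1, hkL, congrArg Subtype.val hk⟩

section Regular

variable (N : Subgroup G)

theorem eq_of_smul_eq (hreg : ∀ x : X, stabilizer N x = ⊥) {n n' : G} (hn : n ∈ N) (hn' : n' ∈ N)
    {a : X} (h : n • a = n' • a) : n = n' := by
  have h1 : (⟨n'⁻¹ * n, N.mul_mem (N.inv_mem hn') hn⟩ : N) ∈ stabilizer N a := by
    rw [mem_stabilizer_iff]
    change (n'⁻¹ * n) • a = a
    rw [mul_smul, h, inv_smul_smul]
  rw [hreg a, Subgroup.mem_bot] at h1
  have h2 : n'⁻¹ * n = 1 := congrArg Subtype.val h1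
  rw [inv_mul_eq_one] at h2
  exact h2.symm

theorem conj_smul {g n : G} {a : X} (hg : g • a = a) : (g * n * g⁻¹) • a = g • n • a := by
  have : g⁻¹ • a = a := by rw [inv_smul_eq_iff, hg]
  rw [mul_smul, mul_smul, this]

/-- if `g` fixes `a` and maps `n • a` to `m • a`, then `g n g⁻¹ = m`. -/
theorem conj_eq_of_smul_eq [hNn : N.Normal] (hreg : ∀ x : X, stabilizer N x = ⊥) {g n m : G} (hn : n ∈ N) (hm : m ∈ N)
    {a : X} (hg : g • a = a) (h : g • n • a = m • a) : g * n * g⁻¹ = m :=
  eq_of_smul_eq N hreg (hNn.conj_mem n hn g) hm (by rw [conj_smul hg, h])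

theorem card_eq (htrans : IsPretransitive N X) (hreg : ∀ x : X, stabilizer N x = ⊥) (a : X) :
    Nat.card X = Nat.card N := by
  rw [← index_stabilizer_of_transitive N a, hreg a, Subgroup.index_bot]

end Regular

theorem mem_fixingSubgroup_singleton {g : G} {a : X} : g ∈ fixingSubgroup G ({a} : Set X) ↔ g • a = a := by
  rw [mem_fixingSubgroup_iff]
  simp

/-- A regular normal subgroup of a 2-primitive group of degree `≠ 3` has exponent 2. -/
theorem sq_eq_one_of_two_preprimitive [Finite X] [Nonempty X] (h2 : IsMultiplyPreprimitive G X 2)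
    (N : Subgroup G) [hNn : N.Normal] (hreg : ∀ x : X, stabilizer N x = ⊥)
    (h3 : Nat.card X ≠ 3) : ∀ n ∈ N, n ^ 2 = 1 := by
  classical
  intro n hn
  by_contra hn2
  obtain ⟨a⟩ : Nonempty X := inferInstance
  have hninv : n⁻¹ ∈ N := N.inv_mem hn
  have hca : a ≠ n • a := by
    intro h
    apply hn2
    have : n = 1 := eq_of_smul_eq N hreg hn N.one_mem (a := a) (by rw [one_smul]; exact h.symm)
    rw [this, one_pow]
  have hca' : a ≠ n⁻¹ • a := by
    intro h
    apply hca
    rw [eq_inv_smul_iff] at h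
    exact h.symm
  have hcc' : n • a ≠ n⁻¹ • a := by
    intro h
    apply hn2
    have : n = n⁻¹ := eq_of_smul_eq N hreg hn hninv h
    rw [pow_two]
    nth_rewrite 1 [this]
    exact inv_mul_cancel n
  set B : Set X := {n • a, n⁻¹ • a} with hB
  have hprim := h2.isPreprimitive_ofFixingSubgroup (s := {a}) (by simp; rfl)
  have key : ∀ y, y ∉ ({a} : Set X) → ∃ g ∈ fixingSubgroup G ({a} : Set X) ⊓ stabilizer G B, g • n • a = y := by
    apply exists_mem_smul_eq_of_preprimitive {a} hprim _ inf_le_left (by simpa using hca.symm)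
    · intro g hg
      obtain ⟨hga, hgc⟩ := Subgroup.mem_inf.mp hg
      refine Subgroup.mem_inf.mpr ⟨hga, ?_⟩
      have hga' : g • a = a := mem_fixingSubgroup_singleton.mp hga
      have hgc' : g • n • a = n • a := hgc
      have h1 : g * n * g⁻¹ = n := conj_eq_of_smul_eq N hreg hn hn hga' hgc'
      have h2 : g • n⁻¹ • a = n⁻¹ • a := by
        rw [← conj_smul hga', ← conj_inv, h1]
      rw [mem_stabilizer_iff, hB, Set.smul_set_insert, Set.smul_set_singleton, hgc', h2]
    · obtain ⟨g, hga, hgc⟩ := is_two_pretransitive_iff.mp h2.isMultiplyPretransitive hca hca'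
      have h1 : g * n * g⁻¹ = n⁻¹ := conj_eq_of_smul_eq N hreg hn hninv hga hgc
      have h2 : g • n⁻¹ • a = n • a := by
        rw [← conj_smul hga, ← conj_inv, h1, inv_inv]
      refine ⟨g, Subgroup.mem_inf.mpr ⟨mem_fixingSubgroup_singleton.mpr hga, ?_⟩, ?_⟩
      · rw [mem_stabilizer_iff, hB, Set.smul_set_insert, Set.smul_set_singleton, hgc, h2,
          Set.pair_comm]
      · rw [hgc]; exact hcc'.symm
  apply h3
  have := Fintype.ofFinite X
  rw [Nat.card_eq_fintype_card, ← Finset.card_univ, Finset.card_eq_three]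
  refine ⟨a, n • a, n⁻¹ • a, hca, hca', hcc', ?_⟩
  ext y
  simp only [Finset.mem_univ, Finset.mem_insert, Finset.mem_singleton, true_iff]
  by_cases hy : y = a
  · exact Or.inl hy
  · right
    obtain ⟨g, hg, hgy⟩ := key y (by simpa using hy)
    obtain ⟨_, hgB⟩ := Subgroup.mem_inf.mp hg
    have : g • n • a ∈ g • B := Set.smul_mem_smul_set (by rw [hB]; exact Set.mem_insert _ _)
    rw [mem_stabilizer_iff.mp hgB, hgy, hB] at this
    simpa using this

theorem comm_of_sq_eq_one (N : Subgroup G) (h : ∀ n ∈ N, n ^ 2 = 1) : IsMulCommutative N := by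
  refine ⟨⟨fun x y => ?_⟩⟩
  apply Subtype.ext
  have hx := h x.1 x.2
  have hy := h y.1 y.2
  have hxy := h (x.1 * y.1) (N.mul_mem x.2 y.2)
  change x.1 * y.1 = y.1 * x.1
  have hx' : x.1⁻¹ = x.1 := by rw [inv_eq_iff_mul_eq_one, ← pow_two, hx]
  have hy' : y.1⁻¹ = y.1 := by rw [inv_eq_iff_mul_eq_one, ← pow_two, hy]
  have hxy' : (x.1 * y.1)⁻¹ = x.1 * y.1 := by rw [inv_eq_iff_mul_eq_one, ← pow_two, hxy]
  rw [← hxy', mul_inv_rev, hx', hy']

theorem card_eq_two_pow [Finite X] (N : Subgroup G) (htrans : IsPretransitive N X)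
    (hreg : ∀ x : X, stabilizer N x = ⊥) (a : X) (h : ∀ n ∈ N, n ^ 2 = 1) :
    ∃ m : ℕ, Nat.card X = 2 ^ m := by
  have hpg : IsPGroup 2 N := by
    intro z
    refine ⟨1, ?_⟩
    rw [pow_one]
    exact Subtype.ext (h z.1 z.2)
  have hfin : Finite N := by
    apply Nat.finite_of_card_ne_zero
    rw [← card_eq N htrans hreg a]
    have : Nonempty X := ⟨a⟩
    exact Nat.card_pos.ne'
  have : Fact (Nat.Prime 2) := ⟨Nat.prime_two⟩
  obtain ⟨m, hm⟩ := IsPGroup.iff_card.mp hpg
  exact ⟨m, by rw [card_eq N htrans hreg a, hm]⟩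

theorem mem_fixingSubgroup_pair {g : G} {a b : X} :
    g ∈ fixingSubgroup G ({a, b} : Set X) ↔ g • a = a ∧ g • b = b := by
  rw [mem_fixingSubgroup_iff]
  simp

/-- A 3-primitive group with a regular normal subgroup has degree 3 or 4. -/
theorem card_of_three_preprimitive [Finite X] (hX : 3 ≤ Nat.card X)
    (h3 : IsMultiplyPreprimitive G X 3)
    (N : Subgroup G) [hNn : N.Normal] (htrans : IsPretransitive N X)
    (hreg : ∀ x : X, stabilizer N x = ⊥) : Nat.card X = 3 ∨ Nat.card X = 4 := by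
  classical
  by_cases hc3 : Nat.card X = 3
  · exact Or.inl hc3
  right
  have := Fintype.ofFinite X
  have hne : Nonempty X := by
    rw [← Finite.card_pos_iff]; omega
  have h2 : IsMultiplyPreprimitive G X 2 := by
    apply isMultiplyPreprimitive_of_le G X h3 (by norm_num)
    rw [ENat.card_eq_coe_natCard]
    exact_mod_cast hX
  have hsq := sq_eq_one_of_two_preprimitive h2 N hreg hc3
  have hex : ∀ s : Finset X, s.card < 3 → ∃ x, x ∉ s := by
    intro s hs
    obtain ⟨x, _, hx⟩ := Finset.exists_mem_notMem_of_card_lt_card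
      (s := s) (t := Finset.univ) (by rw [Finset.card_univ, ← Nat.card_eq_fintype_card]; omega)
    exact ⟨x, hx⟩
  obtain ⟨a⟩ := hne
  obtain ⟨b, hb⟩ := hex {a} (by simp)
  obtain ⟨c, hc⟩ := hex {a, b} (lt_of_le_of_lt Finset.card_le_two (by norm_num))
  simp only [Finset.mem_insert, Finset.mem_singleton, not_or] at hb hc
  obtain ⟨hca, hcb⟩ := hc
  obtain ⟨n₁, hn₁⟩ := htrans.exists_smul_eq a b
  obtain ⟨n₂, hn₂⟩ := htrans.exists_smul_eq a c
  obtain ⟨n₁, hn₁N⟩ := n₁
  obtain ⟨n₂, hn₂N⟩ := n₂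
  change n₁ • a = b at hn₁
  change n₂ • a = c at hn₂
  have hn₁₂N : n₁ * n₂ ∈ N := N.mul_mem hn₁N hn₂N
  have hn₁sq : n₁ * n₁ = 1 := by rw [← pow_two]; exact hsq n₁ hn₁N
  set d : X := (n₁ * n₂) • a with hd
  have hda : d ≠ a := by
    intro h
    have h1 : n₁ * n₂ = 1 := eq_of_smul_eq N hreg hn₁₂N N.one_mem (a := a) (by rw [one_smul]; exact h)
    have h2 : n₂ = n₁ := by
      calc n₂ = (n₁ * n₁) * n₂ := by rw [hn₁sq, one_mul]
        _ = n₁ * (n₁ * n₂) := by rw [mul_assoc]
        _ = n₁ := by rw [h1, mul_one]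
    apply hcb
    rw [← hn₂, ← hn₁, h2]
  have hdb : d ≠ b := by
    intro h
    have h1 : n₁ * n₂ = n₁ := eq_of_smul_eq N hreg hn₁₂N hn₁N (a := a) (by rw [hn₁]; exact h)
    have h2 : n₂ = 1 := by simpa using h1
    apply hca
    rw [← hn₂, h2, one_smul]
  have hdc : d ≠ c := by
    intro h
    have h1 : n₁ * n₂ = n₂ := eq_of_smul_eq N hreg hn₁₂N hn₂N (a := a) (by rw [hn₂]; exact h)
    have h2 : n₁ = 1 := by simpa using h1
    apply hb
    rw [← hn₁, h2, one_smul]
  set B : Set X := {c, d} with hB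
  have hprim := h3.isPreprimitive_ofFixingSubgroup (s := {a, b})
    (by rw [Set.encard_pair (Ne.symm hb)]; rfl)
  have hcs : c ∉ ({a, b} : Set X) := by simp [hca, hcb]
  have hds : d ∉ ({a, b} : Set X) := by simp [hda, hdb]
  have key : ∀ y, y ∉ ({a, b} : Set X) →
      ∃ g ∈ fixingSubgroup G ({a, b} : Set X) ⊓ stabilizer G B, g • c = y := by
    apply exists_mem_smul_eq_of_preprimitive {a, b} hprim _ inf_le_left hcs
    · intro g hg
      obtain ⟨hgab, hgc⟩ := Subgroup.mem_inf.mp hg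
      refine Subgroup.mem_inf.mpr ⟨hgab, ?_⟩
      obtain ⟨hga, hgb⟩ := mem_fixingSubgroup_pair.mp hgab
      have hgc' : g • c = c := hgc
      have h1 : g * n₁ * g⁻¹ = n₁ := conj_eq_of_smul_eq N hreg hn₁N hn₁N hga (by rw [hn₁, hgb])
      have h2 : g * n₂ * g⁻¹ = n₂ := conj_eq_of_smul_eq N hreg hn₂N hn₂N hga (by rw [hn₂, hgc'])
      have h3 : g • d = d := by
        rw [hd, ← conj_smul hga, ← conj_mul, h1, h2]
      rw [mem_stabilizer_iff, hB, Set.smul_set_insert, Set.smul_set_singleton, hgc', h3]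
    · have hc' : c ∈ ofFixingSubgroup G ({a, b} : Set X) := (mem_ofFixingSubgroup_iff G).mpr hcs
      have hd' : d ∈ ofFixingSubgroup G ({a, b} : Set X) := (mem_ofFixingSubgroup_iff G).mpr hds
      obtain ⟨k, hk⟩ := exists_smul_eq (fixingSubgroup G ({a, b} : Set X))
        (⟨c, hc'⟩ : ofFixingSubgroup G ({a, b} : Set X)) ⟨d, hd'⟩
      obtain ⟨g, hgab⟩ := k
      have hgc : g • c = d := congrArg Subtype.val hk
      obtain ⟨hga, hgb⟩ := mem_fixingSubgroup_pair.mp hgab
      have h1 : g * n₁ * g⁻¹ = n₁ := conj_eq_of_smul_eq N hreg hn₁N hn₁N hga (by rw [hn₁, hgb])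
      have h2 : g * n₂ * g⁻¹ = n₁ * n₂ := conj_eq_of_smul_eq N hreg hn₂N hn₁₂N hga (by rw [hn₂, hgc])
      have h3 : g • d = c := by
        rw [hd, ← conj_smul hga, ← conj_mul, h1, h2, ← mul_assoc, hn₁sq, one_mul, hn₂]
      refine ⟨g, Subgroup.mem_inf.mpr ⟨hgab, ?_⟩, ?_⟩
      · rw [mem_stabilizer_iff, hB, Set.smul_set_insert, Set.smul_set_singleton, hgc, h3,
          Set.pair_comm]
      · rw [hgc]; exact hdc
  have huniv : (Finset.univ : Finset X) = {a, b, c, d} := by
    ext y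
    simp only [Finset.mem_univ, Finset.mem_insert, Finset.mem_singleton, true_iff]
    by_cases hya : y = a
    · exact Or.inl hya
    by_cases hyb : y = b
    · exact Or.inr (Or.inl hyb)
    right; right
    obtain ⟨g, hg, hgy⟩ := key y (by simp [hya, hyb])
    obtain ⟨_, hgB⟩ := Subgroup.mem_inf.mp hg
    have : g • c ∈ g • B := Set.smul_mem_smul_set (by rw [hB]; exact Set.mem_insert _ _)
    rw [mem_stabilizer_iff.mp hgB, hgy, hB] at this
    simpa using this
  rw [Nat.card_eq_fintype_card, ← Finset.card_univ, huniv]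
  rw [Finset.card_insert_of_notMem, Finset.card_insert_of_notMem, Finset.card_insert_of_notMem,
    Finset.card_singleton]
  · simp [Ne.symm hdc]
  · simp [Ne.symm hcb, Ne.symm hdb]
  · simp [Ne.symm hb, Ne.symm hca, Ne.symm hda]

end Cfsg.Agent.Lib.Helper12.RegNormal
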